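import Groth.Agent.Sga2lef.H104.PnMain

/-!
# Vanishing of `H^i(P^r_A, F(-m))`, `m ≫ 0`: final form
-/

set_option autoImplicit false
universe u

open AlgebraicGeometry TopologicalSpace CategoryTheory Opposite CategoryTheory.Limits

noncomputable section

namespace Groth.Agent.Sga2lef.H104.PnRes

open Groth.Agent.PerfB.TwistDer Groth.Agent.Sga2lef.H104.TopSum

/-- The vanishing theorem on `P^r_A`, hypothesis at the points closed in their fibre. -/
theorem main (r : ℕ) (A : Type u) [CommRing A] [IsNoetherianRing A] (F : (CohB1.ProjSpace r A).Modules)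
    (hF : Coh.IsCoh F)
    (hflat : FlatMod.IsFlatOver (CohB1.ProjSpace r A ↘ Spec (CommRingCat.of A)) F) (i : ℕ)
    (hdepth : ∀ x : CohB1.ProjSpace r A,
      IsClosed ({(CohB1.ProjSpace r A ↘ Spec (CommRingCat.of A)).asFiber x} :
        Set ↥((CohB1.ProjSpace r A ↘ Spec (CommRingCat.of A)).fiber
          ((CohB1.ProjSpace r A ↘ Spec (CommRingCat.of A)).base x))) →
      Subsingleton (LocCoh.H (IsLocalRing.maximalIdeal
        ↑(CInt.fiberStalk (CohB1.ProjSpace r A ↘ Spec (CommRingCat.of A)) x)) i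
        ↑(((Scheme.Modules.pullback ((CohB1.ProjSpace r A ↘ Spec (CommRingCat.of A)).fiberι
          ((CohB1.ProjSpace r A ↘ Spec (CommRingCat.of A)).base x))).obj F).presheaf.stalk
            ((CohB1.ProjSpace r A ↘ Spec (CommRingCat.of A)).asFiber x)))) :
    ∃ m₀ : ℤ, ∀ m : ℤ, m₀ ≤ m →
      Subsingleton (Coh.HH (CohB1.ProjSpace r A) ((twM r A (-m)).obj F) i) := by
  have hN := isNoetherian_projSpace r A
  refine PnMain.main (fun Q hQ h => H106.UFlat.isFlatOver_of_closedPoints _ Q hQ.1 h)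
    (fun Q m h => H106.UFlat.isFlatOver_twM r A _ Q h m)
    (fun x hx => ⟨Lefx.H80.FibPn.isRegularLocalRing_quot r A x,
      Lefx.H80.FibPn.ringKrullDim_quot_of_isClosed r A x hx⟩) F hF hflat i fun x hx => ?_
  exact (Lefx.H80.FibTr.subsingleton_asFiber_iff (CohB1.ProjSpace r A ↘ Spec (CommRingCat.of A)) F i x).mp
    (hdepth x (Lefx.H80.FibPn.isClosed_asFiber _ x hx))

end Groth.Agent.Sga2lef.H104.PnRes
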