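import Groth.Agent.Sga2.PnTopDual
import Mathlib.Algebra.Module.Projective

/-!
# From exactness of `Hom(-, ω)` to exactness of the top cohomology, over a ring
-/

set_option autoImplicit false
universe w v u

open CategoryTheory CategoryTheory.Limits

namespace Groth.Agent.Sga2lef.H104.AlgDual

open Groth.Agent.Sga2.PnTopDual

theorem exists_factor_of_projective {k : Type*} [CommRing k] {V W U : Type*} [AddCommGroup V] [Module k V]
    [AddCommGroup W] [Module k W] [AddCommGroup U] [Module k U] (a : V →ₗ[k] W) (b : V →ₗ[k] U)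
    (h : LinearMap.ker a ≤ LinearMap.ker b) [Module.Projective k (W ⧸ LinearMap.range a)] :
    ∃ c : W →ₗ[k] U, c.comp a = b := by
  obtain ⟨s, hs⟩ := Module.projective_lifting_property (LinearMap.range a).mkQ
    (LinearMap.id : (W ⧸ LinearMap.range a) →ₗ[k] _) (Submodule.mkQ_surjective _)
  let π : W →ₗ[k] LinearMap.range a := LinearMap.codRestrict (LinearMap.range a)
    (LinearMap.id - s.comp (LinearMap.range a).mkQ) (fun w => by
      rw [← Submodule.Quotient.mk_eq_zero, ← Submodule.mkQ_apply, LinearMap.sub_apply, map_sub]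
      have h1 := LinearMap.congr_fun hs ((LinearMap.range a).mkQ w)
      change (LinearMap.range a).mkQ w - (LinearMap.range a).mkQ (s ((LinearMap.range a).mkQ w)) = 0
      have h2 : (LinearMap.range a).mkQ (s ((LinearMap.range a).mkQ w)) = (LinearMap.range a).mkQ w := h1
      rw [h2, sub_self])
  have hπ : ∀ v, π (a v) = ⟨a v, v, rfl⟩ := fun v => by
    apply Subtype.ext
    change a v - s ((LinearMap.range a).mkQ (a v)) = a v
    have : (LinearMap.range a).mkQ (a v) = 0 := (Submodule.Quotient.mk_eq_zero _).mpr ⟨v, rfl⟩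
    rw [this, map_zero, sub_zero]
  let b' : LinearMap.range a →ₗ[k] U :=
    ((LinearMap.ker a).liftQ b h).comp (a.quotKerEquivRange.symm : LinearMap.range a →ₗ[k] _)
  refine ⟨b'.comp π, ?_⟩
  ext v
  change b' (π (a v)) = b v
  rw [hπ]
  change (LinearMap.ker a).liftQ b h (a.quotKerEquivRange.symm ⟨a v, v, rfl⟩) = b v
  have h3 : a.quotKerEquivRange.symm ⟨a v, v, rfl⟩ = Submodule.Quotient.mk v := by
    rw [LinearEquiv.symm_apply_eq]
    rfl
  rw [h3]
  exact Submodule.liftQ_apply _ _ _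

variable {C : Type u} [Category.{v} C] [Preadditive C] {k : Type w} [CommRing k] {ω : C}
  {σ : k →+* End ω} {T : C ⥤ ModuleCat.{w} k} [T.Additive]
  {hσ : ∀ (a : k) (x : T.obj ω), (T.map (σ a : ω ⟶ ω)).hom x = a • x}

/-- Exactness of `T(L₂) → T(L₁) → T(L₀)`. -/
theorem exact_of_dual {L₂ L₁ L₀ : C} (f : L₂ ⟶ L₁) (g : L₁ ⟶ L₀)
    (hs : Function.Surjective (theta σ T hσ L₂)) (hi : Function.Injective (theta σ T hσ L₁))
    (hex : ∀ φ : L₁ ⟶ ω, f ≫ φ = 0 → ∃ ψ : L₀ ⟶ ω, g ≫ ψ = φ)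
    (hpr : Module.Projective k (HomTo σ L₂ ⧸ LinearMap.range (pre σ f)))
    (ξ : T.obj L₁) (hξ : (T.map g).hom ξ = 0) : ∃ ζ : T.obj L₂, (T.map f).hom ζ = ξ := by
  have hker : LinearMap.ker (pre σ f) ≤ LinearMap.ker (theta σ T hσ L₁ ξ) := by
    intro φ hφ
    obtain ⟨ψ, hψ⟩ := hex φ.hom hφ
    have h1 : pre σ g (HomTo.of σ ψ) = φ := hψ
    rw [LinearMap.mem_ker, ← h1, ← theta_map, hξ, map_zero]
    rfl
  obtain ⟨lam, hlam⟩ := exists_factor_of_projective (pre σ f) (theta σ T hσ L₁ ξ) hker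
  obtain ⟨ζ, hζ⟩ := hs lam
  refine ⟨ζ, hi ?_⟩
  ext φ
  rw [theta_map, hζ, ← hlam]
  rfl

/-- Injectivity of `T(K₁) → T(L₀)` for `L₂ → L₁ → K₁ → 0`. -/
theorem injective_of_dual {L₂ L₁ K L₀ : C} (f : L₂ ⟶ L₁) (p : L₁ ⟶ K) (g : K ⟶ L₀) (hfp : f ≫ p = 0)
    (hTp : Function.Surjective (T.map p).hom)
    (hs : Function.Surjective (theta σ T hσ L₂)) (hi : Function.Injective (theta σ T hσ L₁))
    (hex : ∀ φ : L₁ ⟶ ω, f ≫ φ = 0 → ∃ ψ : L₀ ⟶ ω, (p ≫ g) ≫ ψ = φ)
    (hpr : Module.Projective k (HomTo σ L₂ ⧸ LinearMap.range (pre σ f))) :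
    Function.Injective (T.map g).hom := by
  rw [injective_iff_map_eq_zero]
  intro η hη
  obtain ⟨ξ, rfl⟩ := hTp η
  have h1 : (T.map (p ≫ g)).hom ξ = 0 := by
    rw [T.map_comp, ModuleCat.hom_comp]
    exact hη
  obtain ⟨ζ, rfl⟩ := exact_of_dual f (p ≫ g) hs hi hex hpr ξ h1
  rw [← LinearMap.comp_apply, ← ModuleCat.hom_comp, ← T.map_comp, hfp, T.map_zero]
  rfl

end Groth.Agent.Sga2lef.H104.AlgDual
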