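import Groth.Agent.CohqA.SerreTop
import Groth.Agent.Sga2.PnKey

/-!
# The cokernel of `Hom(L₁ ⊗ N, P) → Hom(L₂ ⊗ N, P)` as `Hom(N, Q)`
-/

set_option autoImplicit false
universe u

open AlgebraicGeometry TopologicalSpace CategoryTheory Opposite CategoryTheory.Limits

noncomputable section

namespace Groth.Agent.Sga2lef.H104.CokerHom

open Groth.Agent.CohqB.HomSheaf Groth.Agent.Sga2.PnHomAdj Groth.Agent.Sga2.PnHomExact
open Groth.Agent.Sga2.PnTopDual Groth.Agent.CohqA.SerreTop Groth.Agent.Sga2.PnKey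

variable (A : Type u) [CommRing A] {X : Scheme.{u}} [X.Over (Spec (CommRingCat.of A))]

theorem smulMod_nat {M N : X.Modules} (φ : M ⟶ N) (a : A) :
    Formal.smulMod A M a ≫ φ = φ ≫ Formal.smulMod A N a :=
  Sga2.PnHHDelta.smulModΓ_naturality φ _

/-- Postcomposition. -/
def post {M M' : X.Modules} (q : M ⟶ M') (G : X.Modules) : HomTo (sig A M) G →ₗ[A] HomTo (sig A M') G where
  toFun φ := (φ.hom ≫ q : G ⟶ M')
  map_add' φ ψ := Preadditive.add_comp _ _ _ _ _ _
  map_smul' a φ := by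
    change (φ.hom ≫ Formal.smulMod A M a) ≫ q = (φ.hom ≫ q) ≫ Formal.smulMod A M' a
    rw [Category.assoc, smulMod_nat, Category.assoc]

theorem homMapRight_smulMod (L P : X.Modules) (a : A) :
    homMapRight L (Formal.smulMod A P a) = Formal.smulMod A (homSheaf L P) a := by
  ext U s
  apply sec_ext
  intro V hV m
  change X.presheaf.map (homOfLE (le_top : V ≤ ⊤)).op (Coh.toGlobal (X ↘ Spec (CommRingCat.of A)) a) •
      comp s V hV m = X.presheaf.map (homOfLE hV).op (X.presheaf.map (homOfLE (le_top : U ≤ ⊤)).op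
        (Coh.toGlobal (X ↘ Spec (CommRingCat.of A)) a)) • comp s V hV m
  rw [← ConcreteCategory.comp_apply, ← Functor.map_comp]
  rfl

theorem curry_add {M N P : X.Modules} (φ ψ : CohB1.tensorMod M N ⟶ P) : curry (φ + ψ) = curry φ + curry ψ := by
  refine homSheaf_hom_ext _ _ fun U n m => ?_
  rw [comp_curry_self]
  change φ.app U (Groth.Agent.Ega2.Tens.tmul m n) + ψ.app U (Groth.Agent.Ega2.Tens.tmul m n) =
    comp ((curry φ).app U n) U le_rfl m + comp ((curry ψ).app U n) U le_rfl m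
  rw [comp_curry_self, comp_curry_self]

/-- The tensor-Hom bijection, linearly. -/
def curryLin (L N P : X.Modules) :
    HomTo (sig A P) (CohB1.tensorMod L N) ≃ₗ[A] HomTo (sig A (homSheaf L P)) N where
  toFun φ := curryEquiv L N P φ.hom
  invFun ψ := (curryEquiv L N P).symm ψ.hom
  left_inv φ := (curryEquiv L N P).symm_apply_apply φ
  right_inv ψ := (curryEquiv L N P).apply_symm_apply ψ
  map_add' φ ψ := curry_add _ _
  map_smul' a φ := by
    change curry (φ.hom ≫ Formal.smulMod A P a) = curry φ.hom ≫ Formal.smulMod A (homSheaf L P) a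
    rw [← homMapRight_smulMod]
    exact curry_naturality φ.hom (Formal.smulMod A P a)

/-- **The cokernel.** -/
theorem exists_coker_equiv {L₁ L₂ P Q N : X.Modules} (h : L₂ ⟶ L₁) (q : homSheaf L₂ P ⟶ Q)
    (w : homMapLeft h P ≫ q = 0)
    (lift1 : ∀ b : N ⟶ homSheaf L₂ P, b ≫ q = 0 → ∃ b' : N ⟶ homSheaf L₁ P, b' ≫ homMapLeft h P = b)
    (lift2 : ∀ g : N ⟶ Q, ∃ g' : N ⟶ homSheaf L₂ P, g' ≫ q = g) :
    Nonempty ((HomTo (sig A P) ((DCoh.tensorRightMod N).obj L₂) ⧸
      LinearMap.range (pre (sig A P) ((DCoh.tensorRightMod N).map h))) ≃ₗ[A] HomTo (sig A Q) N) := by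
  let c : HomTo (sig A P) ((DCoh.tensorRightMod N).obj L₂) →ₗ[A] HomTo (sig A Q) N :=
    (post A q N).comp (curryLin A L₂ N P).toLinearMap
  have hc : Function.Surjective c := by
    intro g
    obtain ⟨g', hg'⟩ := lift2 g.hom
    refine ⟨(curryLin A L₂ N P).symm (HomTo.of _ g'), ?_⟩
    change post A q N (curryLin A L₂ N P ((curryLin A L₂ N P).symm (HomTo.of _ g'))) = g
    rw [LinearEquiv.apply_symm_apply]
    exact hg'
  have hk : LinearMap.ker c = LinearMap.range (pre (sig A P) ((DCoh.tensorRightMod N).map h)) := by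
    ext φ
    constructor
    · intro hφ
      have hφ' : curry φ.hom ≫ q = 0 := hφ
      obtain ⟨b', hb'⟩ := lift1 _ hφ'
      refine ⟨HomTo.of _ ((curryEquiv L₁ N P).symm b'), ?_⟩
      apply (curryEquiv L₂ N P).injective
      have h1 := curry_map h (P := P) (N := N) ((curryEquiv L₁ N P).symm b')
      refine h1.trans ?_
      have h2 : curry ((curryEquiv L₁ N P).symm b') = b' := (curryEquiv L₁ N P).apply_symm_apply b'
      rw [h2, hb']
      rfl
    · rintro ⟨ψ, rfl⟩
      change curry ((DCoh.tensorRightMod N).map h ≫ ψ.hom) ≫ q = 0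
      have h1 := curry_map h (P := P) (N := N) ψ.hom
      have h2 : curry ((DCoh.tensorRightMod N).map h ≫ ψ.hom) = curry ψ.hom ≫ homMapLeft h P := h1
      rw [h2, Category.assoc, w]
      exact CategoryTheory.Limits.comp_zero
  exact ⟨(Submodule.quotEquivOfEq _ _ hk.symm).trans (c.quotKerEquivOfSurjective hc)⟩

end Groth.Agent.Sga2lef.H104.CokerHom
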