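import Groth.Agent.FormalB.CoverInd

/-!
# Naturality of the symbol maps of `CoverInd`
-/

set_option autoImplicit false
universe v u

noncomputable section

namespace Groth.Agent.Sga2lef.H104.CoverNat

open Groth.Agent.FormalB.CoverInd

variable {P : Type u} [DistribLattice P] [BoundedOrder P] {K : Type v} {F : MV P K} {N : ℕ} {D : Fin N → P}
  {L : Type u} [AddCommGroup L] {M : Finset (Fin N) → AddSubgroup L}

/-- The canonical symbol maps. -/
def outPre (I : Input F D M) : ∀ m : ℕ, m < N → Pre I m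
  | 0, h => pre0 I h
  | m + 1, h =>
    { σ := stepσ (outPre I m (by omega)) (j := ⟨m + 1, h⟩) rfl
      σ_nat := stepσ_nat (outPre I m (by omega)) (j := ⟨m + 1, h⟩) rfl
      surj := stepσ_surj (outPre I m (by omega)) (j := ⟨m + 1, h⟩) rfl
      ker := fun T hT x => by
        have := I.acyc T hT m
        rw [← stepσ_ker (outPre I m (by omega)) (j := ⟨m + 1, h⟩) rfl T x]
        constructor
        · rintro ⟨a, ha⟩
          rw [← ha, Subsingleton.elim a 0, map_zero]
        · intro h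
          exact ⟨0, by rw [map_zero, h]⟩
      vanish := fun T q hq => by
        obtain ⟨O⟩ := nonempty_out I m h
        exact O.vanish T q (by omega)
      scalar := step_scalar (outPre I m (by omega)) (j := ⟨m + 1, h⟩) rfl }

theorem outPre_succ_σ (I : Input F D M) (m : ℕ) (h : m + 1 < N) (T : Finset (Fin N)) :
    (outPre I (m + 1) h).σ T = stepσ (outPre I m (by omega)) (j := ⟨m + 1, h⟩) rfl T := rfl

/-- The kernel of the symbol map for at least two opens. -/
theorem outPre_ker (I : Input F D M) (m : ℕ) (h : m + 1 < N) (T : Finset (Fin N))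
    (x : M (Sk N (m + 2) ∪ T)) : (outPre I (m + 1) h).σ T x = 0 ↔
    (x : L) ∈ ⨆ i ∈ Sk N (m + 2), M ((Sk N (m + 2)).erase i ∪ T) :=
  stepσ_ker (outPre I m (by omega)) (j := ⟨m + 1, h⟩) rfl T x

/-- A morphism of Mayer-Vietoris theories. -/
structure Mor (F G : MV P K) where
  τ : ∀ (n : ℕ) (U : P), F.H n U →+ G.H n U
  τ_rs : ∀ (n : ℕ) {U V : P} (h : V ≤ U) (x : F.H n U), G.rs n h (τ n U x) = τ n V (F.rs n h x)
  τ_δ : ∀ {A B C W : P} (h₄ : W = A ⊔ B) (h₁ : C = A ⊓ B) (n : ℕ) (z : F.H n C),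
    τ (n + 1) W (F.δ h₄ h₁ n z) = G.δ h₄ h₁ n (τ n C z)

variable {G : MV P K} {L' : Type u} [AddCommGroup L'] {M' : Finset (Fin N) → AddSubgroup L'}

theorem outPre_nat (I : Input F D M) (J : Input G D M') (τ : Mor F G) (a : L → L')
    (ha : ∀ (T : Finset (Fin N)) (x : L), x ∈ M T → a x ∈ M' T)
    (hρ : ∀ (T : Finset (Fin N)) (hT : T.Nonempty) (x : M T),
      τ.τ 0 _ (I.ρ T hT x) = J.ρ T hT ⟨a x, ha T x x.2⟩) :
    ∀ (m : ℕ) (hm : m < N) (T : Finset (Fin N)) (x : M (Sk N (m + 1) ∪ T)),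
      τ.τ m _ ((outPre I m hm).σ T x) = (outPre J m hm).σ T ⟨a x, ha _ x x.2⟩ := by
  intro m
  induction m with
  | zero =>
    intro hm T x
    change τ.τ 0 _ (F.rs 0 _ (I.ρ _ _ _)) = G.rs 0 _ (J.ρ _ _ _)
    rw [← τ.τ_rs, hρ]
    rfl
  | succ m ih =>
    intro hm T x
    rw [outPre_succ_σ, outPre_succ_σ, stepσ_apply, stepσ_apply, τ.τ_δ, ih]
    rfl

end Groth.Agent.Sga2lef.H104.CoverNat
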