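import Groth.Agent.Sga67.PushFlat
import Groth.Agent.VarietyA.H0Equiv

/-!
# Flatness of `H^0` of an acyclic flat module
-/

set_option autoImplicit false
universe u

open CategoryTheory CategoryTheory.Limits AlgebraicGeometry Opposite TopologicalSpace

namespace Groth.Agent.Sga2lef.H104.FlatH0

open Groth.Agent.VarietyA.H0Equiv

theorem flat_HH0 (A : Type u) [CommRing A] {X : Scheme.{u}} [X.Over (Spec (CommRingCat.of A))]
    [QuasiCompact (X ↘ Spec (CommRingCat.of A))] [IsSeparated (X ↘ Spec (CommRingCat.of A))] (F : X.Modules)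
    (hF : Coh.IsQCoh F) (hfl : FlatMod.IsFlatOver (X ↘ Spec (CommRingCat.of A)) F)
    (hvan : ∀ q : ℕ, 1 ≤ q → Subsingleton (Coh.HH X F q)) : Module.Flat A (Coh.HH X F 0) := by
  have h := Sga67.PushFlat.flat_sections (X ↘ Spec (CommRingCat.of A)) F hF hfl hvan
  let φ : A →+* Γ(Spec (CommRingCat.of A), ⊤) := (Scheme.ΓSpecIso (CommRingCat.of A)).inv.hom
  let i1 : Algebra A Γ(Spec (CommRingCat.of A), ⊤) := φ.toAlgebra
  have i2 : Module.Flat A Γ(Spec (CommRingCat.of A), ⊤) := by
    let e : A ≃ₗ[A] Γ(Spec (CommRingCat.of A), ⊤) :=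
      LinearEquiv.ofBijective (Algebra.linearMap A Γ(Spec (CommRingCat.of A), ⊤))
        (ConcreteCategory.bijective_of_isIso (Scheme.ΓSpecIso (CommRingCat.of A)).inv)
    exact Module.Flat.of_linearEquiv e.symm
  let M : Type u := Γ((Scheme.Modules.pushforward (X ↘ Spec (CommRingCat.of A))).obj F, ⊤)
  let i3 : AddCommGroup M := inferInstanceAs
    (AddCommGroup Γ((Scheme.Modules.pushforward (X ↘ Spec (CommRingCat.of A))).obj F, ⊤))
  let i4 : Module Γ(Spec (CommRingCat.of A), ⊤) M := inferInstanceAs (Module Γ(Spec (CommRingCat.of A), ⊤)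
    Γ((Scheme.Modules.pushforward (X ↘ Spec (CommRingCat.of A))).obj F, ⊤))
  let i5 : Module A M := Module.compHom M φ
  have i6 : IsScalarTower A Γ(Spec (CommRingCat.of A), ⊤) M := IsScalarTower.of_algebraMap_smul fun _ _ => rfl
  have i7 : Module.Flat Γ(Spec (CommRingCat.of A), ⊤) M := h
  have i8 : Module.Flat A M := Module.Flat.trans A Γ(Spec (CommRingCat.of A), ⊤) M
  let e : Coh.HH X F 0 ≃ₗ[A] M :=
    { (hZeroEquiv F : Coh.HH X F 0 ≃+ M) with
      map_smul' := fun a x => hZeroEquiv_smul F (Coh.toGlobal (X ↘ Spec (CommRingCat.of A)) a) x }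
  exact Module.Flat.of_linearEquiv e

end Groth.Agent.Sga2lef.H104.FlatH0
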