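import Groth.Agent.Sga2.PnLCExt
import Groth.Agent.Ega3B.FlatCxB
import Groth.Agent.FlatA.FibreCrit
import Mathlib.RingTheory.TensorProduct.Quotient

/-!
# Reduction of a resolution modulo the maximal ideal of the base and local cohomology of the fibre
-/

set_option autoImplicit false
universe u

open TensorProduct IsLocalRing

namespace Groth.Agent.Sga2lef.H104.LocAlg

variable {R : Type u} [CommRing R] (I : Ideal R)

/-- `M / I M`. -/
abbrev Qt (M : Type u) [AddCommGroup M] [Module R M] : Type u := M ⧸ (I • ⊤ : Submodule R M)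

/-- The induced map `M / I M → N / I N`. -/
noncomputable def qmap {M N : Type u} [AddCommGroup M] [Module R M] [AddCommGroup N] [Module R N]
    (f : M →ₗ[R] N) : Qt I M →ₗ[R ⧸ I] Qt I N :=
  LinearMap.extendScalarsOfSurjective (Ideal.Quotient.mk_surjective)
    (Submodule.mapQ _ _ f (by
      rw [← Submodule.map_le_iff_le_comap, Submodule.map_smul'']
      exact Submodule.smul_mono le_rfl le_top))

theorem qmap_mk {M N : Type u} [AddCommGroup M] [Module R M] [AddCommGroup N] [Module R N]
    (f : M →ₗ[R] N) (x : M) : qmap I f (Submodule.Quotient.mk x) = Submodule.Quotient.mk (f x) := rfl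

variable {I}

theorem qmap_surjective {M N : Type u} [AddCommGroup M] [Module R M] [AddCommGroup N] [Module R N]
    (f : M →ₗ[R] N) (hf : Function.Surjective f) : Function.Surjective (qmap I f) := by
  intro y
  obtain ⟨y, rfl⟩ := Submodule.Quotient.mk_surjective _ y
  obtain ⟨x, rfl⟩ := hf y
  exact ⟨Submodule.Quotient.mk x, rfl⟩

theorem qmap_exact {M N P : Type u} [AddCommGroup M] [Module R M] [AddCommGroup N] [Module R N]
    [AddCommGroup P] [Module R P] (f : M →ₗ[R] N) (g : N →ₗ[R] P) (h : Function.Exact f g)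
    (hg : Function.Surjective g) : Function.Exact (qmap I f) (qmap I g) := by
  intro y
  obtain ⟨y, rfl⟩ := Submodule.Quotient.mk_surjective _ y
  constructor
  · intro hy
    rw [qmap_mk, Submodule.Quotient.mk_eq_zero] at hy
    have h1 : (I • ⊤ : Submodule R P) = Submodule.map g (I • ⊤) := by
      rw [Submodule.map_smul'', Submodule.map_top, LinearMap.range_eq_top.mpr hg]
    rw [h1] at hy
    obtain ⟨z, hz, hzy⟩ := hy
    have h2 : g (y - z) = 0 := by rw [map_sub, hzy, sub_self]
    obtain ⟨x, hx⟩ := (h _).mp h2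
    refine ⟨Submodule.Quotient.mk x, ?_⟩
    rw [qmap_mk, hx, Submodule.Quotient.mk_sub, (Submodule.Quotient.mk_eq_zero _).mpr hz, sub_zero]
  · rintro ⟨x, hx⟩
    obtain ⟨x, rfl⟩ := Submodule.Quotient.mk_surjective _ x
    rw [← hx, qmap_mk, qmap_mk, h.apply_apply_eq_zero, Submodule.Quotient.mk_zero]

instance finite_Qt (M : Type u) [AddCommGroup M] [Module R M] [Module.Finite R M] :
    Module.Finite (R ⧸ I) (Qt I M) :=
  Module.Finite.of_restrictScalars_finite R (R ⧸ I) (Qt I M)

instance free_Qt (M : Type u) [AddCommGroup M] [Module R M] [Module.Free R M] :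
    Module.Free (R ⧸ I) (Qt I M) :=
  Module.Free.of_equiv ((quotTensorEquivQuotSMul M I).extendScalarsOfSurjective
    (R := R) (S := R ⧸ I) Ideal.Quotient.mk_surjective)

section

variable {A : Type u} [CommRing A] [IsLocalRing A] [IsLocalRing R] [Algebra A R]

theorem qmap_injective {M N P : Type u} [AddCommGroup M] [Module R M] [AddCommGroup N] [Module R N]
    [AddCommGroup P] [Module R P] [Module A M] [Module A N] [Module A P] [IsScalarTower A R M]
    [IsScalarTower A R N] [IsScalarTower A R P] (hI : I = (maximalIdeal A).map (algebraMap A R))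
    (f : M →ₗ[R] N) (g : N →ₗ[R] P) (hf : Function.Injective f) (h : Function.Exact f g)
    (hg : Function.Surjective g) (hP : Module.Flat A P) : Function.Injective (qmap I f) := by
  have h1 : Function.Injective ((f.restrictScalars A).lTensor (A ⧸ maximalIdeal A)) :=
    LinearMap.lTensor_injective_of_exact_of_flat (g.restrictScalars A) hg (f.restrictScalars A) hf h _
  have h2 := FlatA.FibreCrit.comap_smul_le_of_lTensor_quotient_injective (f.restrictScalars A) _ h1
  rw [injective_iff_map_eq_zero]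
  intro x hx
  obtain ⟨x, rfl⟩ := Submodule.Quotient.mk_surjective _ x
  rw [qmap_mk, Submodule.Quotient.mk_eq_zero, hI,
    ← FlatA.FibreCrit.mem_smul_top_iff_of_isScalarTower (R := A) (S := R)] at hx
  rw [Submodule.Quotient.mk_eq_zero, hI, ← FlatA.FibreCrit.mem_smul_top_iff_of_isScalarTower (R := A) (S := R)]
  exact h2 hx

end

/-- Maps to `R / I` factor through `M / I M`. -/
theorem exists_lift {M : Type u} [AddCommGroup M] [Module R M] (φ : M →ₗ[R] R ⧸ I) :
    ∃ φ' : Qt I M →ₗ[R ⧸ I] R ⧸ I, ∀ x, φ' (Submodule.Quotient.mk x) = φ x := by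
  have h : (I • ⊤ : Submodule R M) ≤ LinearMap.ker φ := by
    refine Submodule.smul_le.mpr fun r hr x _ => ?_
    rw [LinearMap.mem_ker, map_smul, Algebra.smul_def]
    have : algebraMap R (R ⧸ I) r = 0 := Ideal.Quotient.eq_zero_iff_mem.mpr hr
    rw [this, zero_mul]
  exact ⟨LinearMap.extendScalarsOfSurjective (Ideal.Quotient.mk_surjective)
    (Submodule.liftQ _ φ h), fun x => rfl⟩

variable {A : Type u} [CommRing A] [IsLocalRing A] [IsLocalRing R] [IsNoetherianRing R] [Algebra A R]
  [IsLocalHom (algebraMap A R)] [Module.Flat A R] [IsRegularLocalRing (R ⧸ I)]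

/-- **Extension of maps to `R/I` from vanishing of the local cohomology of the fibre**. -/
theorem ext_of_lc (hI : I = (maximalIdeal A).map (algebraMap A R)) (r : ℕ) (hr : ringKrullDim (R ⧸ I) = r)
    (i j : ℕ) (hij : i + (j + 1) = r) (K L : ℕ → Type u)
    [∀ t, AddCommGroup (K t)] [∀ t, Module R (K t)] [∀ t, Module.Finite R (K t)]
    [∀ t, AddCommGroup (L t)] [∀ t, Module R (L t)] [∀ t, Module.Finite R (L t)]
    [∀ t, Module.Free R (L t)] [∀ t, Module A (K t)] [∀ t, IsScalarTower A R (K t)]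
    [∀ t, Module A (L t)] [∀ t, IsScalarTower A R (L t)]
    (f : ∀ t, K (t + 1) →ₗ[R] L t) (g : ∀ t, L t →ₗ[R] K t)
    (hf : ∀ t, Function.Injective (f t)) (hfg : ∀ t, Function.Exact (f t) (g t))
    (hg : ∀ t, Function.Surjective (g t)) (hfl : Module.Flat A (K 0))
    (hLC : Subsingleton (LocCoh.H (maximalIdeal (R ⧸ I)) i (Qt I (K 0)))) :
    ∀ φ : K (j + 1) →ₗ[R] R ⧸ I, ∃ ψ : L j →ₗ[R] R ⧸ I, ψ ∘ₗ f j = φ := by
  have hKfl : ∀ t, Module.Flat A (K t) := by
    intro t
    induction t with
    | zero => exact hfl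
    | succ t ih =>
      have hL : Module.Flat A (L t) := Module.Flat.trans A R (L t)
      exact Ega3B.FlatCxB.flat_of_exact ((f t).restrictScalars A) ((g t).restrictScalars A) (hf t) (hg t)
        (hfg t) hL ih
  have key := (Sga2.PnLCExt.subsingleton_lc_iff (R ⧸ I) r hr j (by omega) (fun t => Qt I (K t))
    (fun t => Qt I (L t)) (fun t => qmap I (f t)) (fun t => qmap I (g t))
    (fun t => qmap_injective hI (f t) (g t) (hf t) (hfg t) (hg t) (hKfl t))
    (fun t => qmap_exact (f t) (g t) (hfg t) (hg t)) (fun t => qmap_surjective (g t) (hg t))).mp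
    (by rw [show r - (j + 1) = i by omega]; exact hLC)
  intro φ
  obtain ⟨φ', hφ'⟩ := exists_lift φ
  obtain ⟨ψ', hψ'⟩ := key φ'
  refine ⟨(ψ'.restrictScalars R) ∘ₗ Submodule.mkQ _, ?_⟩
  ext x
  rw [← hφ', ← hψ']
  rfl

omit [IsLocalRing R] in
/-- The top degree. -/
theorem ext_of_lc_top (r : ℕ) (hr : ringKrullDim (R ⧸ I) = r) (M : Type u) [AddCommGroup M] [Module R M]
    [Module.Finite R M] (hLC : Subsingleton (LocCoh.H (maximalIdeal (R ⧸ I)) r (Qt I M)))
    (φ : M →ₗ[R] R ⧸ I) : φ = 0 := by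
  have h := (Sga2.PnLCExt.subsingleton_lc_top_iff (R ⧸ I) r hr (Qt I M)).mp hLC
  obtain ⟨φ', hφ'⟩ := exists_lift φ
  ext x
  rw [← hφ', h.elim φ' 0]
  rfl

end Groth.Agent.Sga2lef.H104.LocAlg
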