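import Groth.Agent.Sga2.PnStalkHom

/-!
# Stalks of the internal Hom of coherent modules
-/

set_option autoImplicit false
universe u

open CategoryTheory CategoryTheory.Limits AlgebraicGeometry Opposite TopologicalSpace

namespace Groth.Agent.Sga2lef.H104.StalkHom

open Groth.Agent.CohqB.HomSheaf Groth.Agent.Sga2.PnHomAdj Groth.Agent.CycB.StalkExact
open Groth.Agent.Fdesc.QCohStalk Groth.Agent.Sga2.PnStalkHom

variable {X : Scheme.{u}} {L P : X.Modules}

/-- The stalk of the internal Hom of coherent modules. -/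
theorem exists_equiv [IsLocallyNoetherian X] (hL : Coh.IsCoh L) (hP : Coh.IsCoh P) {U : X.Opens}
    (hU : IsAffineOpen U) (x : X) (hx : x ∈ U) :
    ∃ e : (homSheaf L P).presheaf.stalk x ≃ₗ[X.presheaf.stalk x]
        (L.presheaf.stalk x →ₗ[X.presheaf.stalk x] P.presheaf.stalk x),
      ∀ (s : Γ(homSheaf L P, U)) (m : Γ(L, U)),
        e ((homSheaf L P).presheaf.germ U x hx s) (L.presheaf.germ U x hx m) =
          P.presheaf.germ U x hx (comp s U le_rfl m) := by
  let i1 : Algebra Γ(X, U) (X.presheaf.stalk x) := (X.presheaf.germ U x hx).hom.toAlgebra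
  have i2 : IsLocalization.AtPrime (X.presheaf.stalk x) (hU.primeIdealOf ⟨x, hx⟩).asIdeal :=
    hU.isLocalization_stalk ⟨x, hx⟩
  let i4 : Module Γ(X, U) (L.presheaf.stalk x) := stalkModule L x hx
  let i5 : Module Γ(X, U) (P.presheaf.stalk x) := stalkModule P x hx
  let i3 : Module Γ(X, U) ((homSheaf L P).presheaf.stalk x) := stalkModule (homSheaf L P) x hx
  have i7 : IsScalarTower Γ(X, U) (X.presheaf.stalk x) (L.presheaf.stalk x) :=
    IsScalarTower.of_algebraMap_smul fun _ _ => rfl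
  have i8 : IsScalarTower Γ(X, U) (X.presheaf.stalk x) (P.presheaf.stalk x) :=
    IsScalarTower.of_algebraMap_smul fun _ _ => rfl
  have i6 : IsScalarTower Γ(X, U) (X.presheaf.stalk x) ((homSheaf L P).presheaf.stalk x) :=
    IsScalarTower.of_algebraMap_smul fun _ _ => rfl
  have i9 : IsLocalizedModule (hU.primeIdealOf ⟨x, hx⟩).asIdeal.primeCompl (germₗ (homSheaf L P) x hx) :=
    isLocalizedModule_germ (homSheaf L P) hU (isCoh_homSheaf hL hP).1 x hx
  have i10 : IsLocalizedModule (hU.primeIdealOf ⟨x, hx⟩).asIdeal.primeCompl (germₗ L x hx) :=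
    isLocalizedModule_germ L hU hL.1 x hx
  have i11 : IsLocalizedModule (hU.primeIdealOf ⟨x, hx⟩).asIdeal.primeCompl (germₗ P x hx) :=
    isLocalizedModule_germ P hU hP.1 x hx
  have i13 := finitePresentation_of_isCoh hL hU
  let S := (hU.primeIdealOf ⟨x, hx⟩).asIdeal.primeCompl
  let mL := IsLocalizedModule.mapExtendScalars S (germₗ L x hx) (germₗ P x hx) (X.presheaf.stalk x)
  have iHL : IsLocalizedModule S mL := inferInstanceAs
    (IsLocalizedModule S (IsLocalizedModule.mapExtendScalars S (germₗ L x hx) (germₗ P x hx) (X.presheaf.stalk x)))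
  let a : Γ(homSheaf L P, U) ≃ₗ[Γ(X, U)] (Γ(L, U) →ₗ[Γ(X, U)] Γ(P, U)) := affineEquiv hL.1 hU
  have i14 : IsLocalizedModule S (mL ∘ₗ a.toLinearMap) :=
    IsLocalizedModule.of_linearEquiv_right S mL a
  let e0 := IsLocalizedModule.linearEquiv S (germₗ (homSheaf L P) x hx) (mL ∘ₗ a.toLinearMap)
  let e : (homSheaf L P).presheaf.stalk x ≃ₗ[X.presheaf.stalk x]
        (L.presheaf.stalk x →ₗ[X.presheaf.stalk x] P.presheaf.stalk x) :=
    e0.extendScalarsOfIsLocalization S (X.presheaf.stalk x)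
  refine ⟨e, fun s m => ?_⟩
  have h1 : e ((homSheaf L P).presheaf.germ U x hx s) = mL (a s) :=
    IsLocalizedModule.linearEquiv_apply S (germₗ (homSheaf L P) x hx) (mL ∘ₗ a.toLinearMap) s
  rw [h1]
  have hmL : ∀ (φ : Γ(L, U) →ₗ[Γ(X, U)] Γ(P, U)) k, mL φ (germₗ L x hx k) = germₗ P x hx (φ k) :=
    fun φ k ↦ by simp [mL]
  exact hmL (a s) m

/-- Linear maps out of the stalk of a quasi-coherent module are determined on germs over an affine open. -/
theorem ext_stalk {M : X.Modules} (hM : Coh.IsQCoh M) {U : X.Opens} (hU : IsAffineOpen U) (x : X) (hx : x ∈ U)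
    {N : Type*} [AddCommGroup N] [Module (X.presheaf.stalk x) N]
    (a b : M.presheaf.stalk x →ₗ[X.presheaf.stalk x] N)
    (h : ∀ m : Γ(M, U), a (M.presheaf.germ U x hx m) = b (M.presheaf.germ U x hx m)) : a = b := by
  let i1 : Algebra Γ(X, U) (X.presheaf.stalk x) := (X.presheaf.germ U x hx).hom.toAlgebra
  have i2 : IsLocalization.AtPrime (X.presheaf.stalk x) (hU.primeIdealOf ⟨x, hx⟩).asIdeal :=
    hU.isLocalization_stalk ⟨x, hx⟩
  let i4 : Module Γ(X, U) (M.presheaf.stalk x) := stalkModule M x hx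
  have i9 : IsLocalizedModule (hU.primeIdealOf ⟨x, hx⟩).asIdeal.primeCompl (germₗ M x hx) :=
    isLocalizedModule_germ M hU hM x hx
  ext t
  obtain ⟨⟨s, r⟩, hs⟩ := IsLocalizedModule.surj (hU.primeIdealOf ⟨x, hx⟩).asIdeal.primeCompl (germₗ M x hx) t
  have hu : IsUnit (algebraMap Γ(X, U) (X.presheaf.stalk x) r) :=
    IsLocalization.map_units (X.presheaf.stalk x) r
  have hs' : algebraMap Γ(X, U) (X.presheaf.stalk x) r • t = M.presheaf.germ U x hx s := hs
  rw [← hu.smul_left_cancel, ← map_smul, ← map_smul, hs', h]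

/-- Naturality of the description of the stalk of the internal Hom. -/
theorem equiv_nat {L₁ L₂ P : X.Modules} [IsLocallyNoetherian X] (hL₁ : Coh.IsCoh L₁) (hL₂ : Coh.IsCoh L₂)
    (hP : Coh.IsCoh P) {U : X.Opens} (hU : IsAffineOpen U) (x : X) (hx : x ∈ U) (h : L₂ ⟶ L₁)
    (e₁ : (homSheaf L₁ P).presheaf.stalk x ≃ₗ[X.presheaf.stalk x]
        (L₁.presheaf.stalk x →ₗ[X.presheaf.stalk x] P.presheaf.stalk x))
    (e₂ : (homSheaf L₂ P).presheaf.stalk x ≃ₗ[X.presheaf.stalk x]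
        (L₂.presheaf.stalk x →ₗ[X.presheaf.stalk x] P.presheaf.stalk x))
    (he₁ : ∀ (s : Γ(homSheaf L₁ P, U)) (m : Γ(L₁, U)),
        e₁ ((homSheaf L₁ P).presheaf.germ U x hx s) (L₁.presheaf.germ U x hx m) =
          P.presheaf.germ U x hx (comp s U le_rfl m))
    (he₂ : ∀ (s : Γ(homSheaf L₂ P, U)) (m : Γ(L₂, U)),
        e₂ ((homSheaf L₂ P).presheaf.germ U x hx s) (L₂.presheaf.germ U x hx m) =
          P.presheaf.germ U x hx (comp s U le_rfl m)) (t : (homSheaf L₁ P).presheaf.stalk x) :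
    e₂ (stalkLin (homMapLeft h P) x t) = e₁ t ∘ₗ stalkLin h x := by
  have key : e₂.toLinearMap ∘ₗ stalkLin (homMapLeft h P) x =
      (LinearMap.lcomp (X.presheaf.stalk x) (P.presheaf.stalk x) (stalkLin h x)) ∘ₗ e₁.toLinearMap := by
    refine ext_stalk (isCoh_homSheaf hL₁ hP).1 hU x hx _ _ fun s => ?_
    refine ext_stalk hL₂.1 hU x hx _ _ fun m => ?_
    change e₂ (stalkLin (homMapLeft h P) x ((homSheaf L₁ P).presheaf.germ U x hx s)) (L₂.presheaf.germ U x hx m) =
      e₁ ((homSheaf L₁ P).presheaf.germ U x hx s) (stalkLin h x (L₂.presheaf.germ U x hx m))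
    rw [stalkLin_germ, stalkLin_germ, he₁, he₂, comp_homMapLeft]
  exact LinearMap.congr_fun key t

/-- The stalk of the cokernel of `Hom(L₁, P) → Hom(L₂, P)` for `P_x ≅ O_x`. -/
theorem exists_coker_equiv {L₁ L₂ P Q : X.Modules} [IsLocallyNoetherian X] (hL₁ : Coh.IsCoh L₁)
    (hL₂ : Coh.IsCoh L₂) (hP : Coh.IsCoh P) (h : L₂ ⟶ L₁) (q : homSheaf L₂ P ⟶ Q) (w : homMapLeft h P ≫ q = 0)
    (hex : (ShortComplex.mk (homMapLeft h P) q w).Exact) [Epi q] (x : X)
    (eP : P.presheaf.stalk x ≃ₗ[X.presheaf.stalk x] X.presheaf.stalk x) :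
    Nonempty (((L₂.presheaf.stalk x →ₗ[X.presheaf.stalk x] X.presheaf.stalk x) ⧸
      LinearMap.range (LinearMap.lcomp (X.presheaf.stalk x) (X.presheaf.stalk x) (stalkLin h x)))
      ≃ₗ[X.presheaf.stalk x] Q.presheaf.stalk x) := by
  obtain ⟨U, hU, hx, -⟩ := Opens.isBasis_iff_nbhd.mp X.isBasis_affineOpens
    (show x ∈ (⊤ : X.Opens) from trivial)
  obtain ⟨e₁, he₁⟩ := exists_equiv hL₁ hP hU x hx
  obtain ⟨e₂, he₂⟩ := exists_equiv hL₂ hP hU x hx
  have hnat := equiv_nat hL₁ hL₂ hP hU x hx h e₁ e₂ he₁ he₂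
  let c : (L₂.presheaf.stalk x →ₗ[X.presheaf.stalk x] X.presheaf.stalk x) →ₗ[X.presheaf.stalk x]
      Q.presheaf.stalk x :=
    stalkLin q x ∘ₗ e₂.symm.toLinearMap ∘ₗ (LinearMap.compRight (X.presheaf.stalk x) eP.symm.toLinearMap)
  have hc : Function.Surjective c := by
    intro y
    obtain ⟨t, ht⟩ := stalkLin_surjective q x y
    refine ⟨eP.toLinearMap ∘ₗ e₂ t, ?_⟩
    have h1 : eP.symm.toLinearMap ∘ₗ (eP.toLinearMap ∘ₗ e₂ t) = e₂ t := by
      ext z
      exact eP.symm_apply_apply _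
    change stalkLin q x (e₂.symm (eP.symm.toLinearMap ∘ₗ (eP.toLinearMap ∘ₗ e₂ t))) = y
    rw [h1, LinearEquiv.symm_apply_apply, ht]
  have hk : LinearMap.ker c = LinearMap.range (LinearMap.lcomp (X.presheaf.stalk x) (X.presheaf.stalk x)
      (stalkLin h x)) := by
    have hst := stalkLin_exact _ hex x
    ext φ
    constructor
    · intro hφ
      obtain ⟨t, ht⟩ := (hst _).mp hφ
      refine ⟨eP.toLinearMap ∘ₗ e₁ t, ?_⟩
      have h2 := hnat t
      have h3 : e₂ (stalkLin (homMapLeft h P) x t) = eP.symm.toLinearMap ∘ₗ φ := by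
        have h4 := congrArg e₂ ht
        rw [h4]
        exact e₂.apply_symm_apply _
      ext z
      change eP (e₁ t (stalkLin h x z)) = φ z
      have h5 := LinearMap.congr_fun (h2.symm.trans h3) z
      have h6 : e₁ t (stalkLin h x z) = eP.symm (φ z) := h5
      rw [h6, LinearEquiv.apply_symm_apply]
    · rintro ⟨ψ, rfl⟩
      refine (hst _).mpr ⟨e₁.symm (eP.symm.toLinearMap ∘ₗ ψ), ?_⟩
      apply e₂.injective
      have h2 := hnat (e₁.symm (eP.symm.toLinearMap ∘ₗ ψ))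
      refine h2.trans ?_
      rw [LinearEquiv.apply_symm_apply]
      exact (e₂.apply_symm_apply _).symm
  exact ⟨(Submodule.quotEquivOfEq _ _ hk.symm).trans (c.quotKerEquivOfSurjective hc)⟩

end Groth.Agent.Sga2lef.H104.StalkHom
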