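import Groth.Agent.Sga2lef.H104.LocCore
import Groth.Agent.Sga2lef.H104.LocAlg
import Groth.Agent.Sga2lef.H104.StalkHom
import Groth.Agent.Divis.StalkMod
import Groth.Agent.Sga2.PnFinal
import Mathlib.AlgebraicGeometry.Morphisms.Flat

/-!
# Extension of maps to the dualizing module and flatness of the cokernel at a point
-/

set_option autoImplicit false
universe u

open CategoryTheory CategoryTheory.Limits AlgebraicGeometry Opposite TopologicalSpace

namespace Groth.Agent.Sga2lef.H104.FlatQ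

open Groth.Agent.CohqB.HomSheaf Groth.Agent.Sga2.PnHomAdj Groth.Agent.CycB.StalkExact
open Groth.Agent.Sga2.PnStalkHom

variable {X S : Scheme.{u}} (f : X ⟶ S)

/-- The ideal of the fibre in the local ring. -/
noncomputable abbrev fibIdeal (x : X) : Ideal (X.presheaf.stalk x) :=
  (IsLocalRing.maximalIdeal (S.presheaf.stalk (f.base x))).map (f.stalkMap x).hom

theorem main [IsLocallyNoetherian X] {K₁ K₂ L₀ L₁ L₂ P Q : X.Modules} (hK₁ : Coh.IsCoh K₁)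
    (hL₀ : Coh.IsCoh L₀) (hL₁ : Coh.IsCoh L₁) (hL₂ : Coh.IsCoh L₂) (hP : Coh.IsCoh P)
    (hf₀ : FlatMod.IsFinLocFree L₀) (hf₁ : FlatMod.IsFinLocFree L₁) (hf₂ : FlatMod.IsFinLocFree L₂)
    (f₀ : K₁ ⟶ L₀) (g₁ : L₁ ⟶ K₁) (f₁ : K₂ ⟶ L₁) (g₂ : L₂ ⟶ K₂) [Epi g₂] [Epi g₁] (w : f₁ ≫ g₁ = 0)
    (hex : (ShortComplex.mk f₁ g₁ w).Exact)
    (q : homSheaf L₂ P ⟶ Q) (wq : homMapLeft (g₂ ≫ f₁) P ≫ q = 0)
    (hq : (ShortComplex.mk (homMapLeft (g₂ ≫ f₁) P) q wq).Exact) [Epi q] (x : X)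
    (hfl : (f.stalkMap x).hom.Flat)
    (eP : P.presheaf.stalk x ≃ₗ[X.presheaf.stalk x] X.presheaf.stalk x)
    (ext : ∀ φ : K₁.presheaf.stalk x →ₗ[X.presheaf.stalk x] (X.presheaf.stalk x ⧸ fibIdeal f x),
      ∃ ψ : L₀.presheaf.stalk x →ₗ[X.presheaf.stalk x] (X.presheaf.stalk x ⧸ fibIdeal f x),
        ψ ∘ₗ stalkLin f₀ x = φ) :
    (∀ φ : K₁.presheaf.stalk x →ₗ[X.presheaf.stalk x] P.presheaf.stalk x,
      ∃ ψ : L₀.presheaf.stalk x →ₗ[X.presheaf.stalk x] P.presheaf.stalk x,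
        ψ ∘ₗ stalkLin f₀ x = φ) ∧ FlatMod.IsFlatOverAt f Q x := by
  let alg : Algebra (S.presheaf.stalk (f.base x)) (X.presheaf.stalk x) := (f.stalkMap x).hom.toAlgebra
  have iloc : IsLocalHom (algebraMap (S.presheaf.stalk (f.base x)) (X.presheaf.stalk x)) :=
    inferInstanceAs (IsLocalHom (f.stalkMap x).hom)
  have iflat : Module.Flat (S.presheaf.stalk (f.base x)) (X.presheaf.stalk x) := hfl
  have i0 := Divis.StalkMod.finite_free_stalk hL₀.1 hf₀ x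
  have i1 := Divis.StalkMod.finite_free_stalk hL₁.1 hf₁ x
  have i2 := Divis.StalkMod.finite_free_stalk hL₂.1 hf₂ x
  have i0f := i0.1
  have i0r := i0.2
  have i1f := i1.1
  have i1r := i1.2
  have i2f := i2.1
  have i2r := i2.2
  obtain ⟨h1, h2⟩ := LocCore.core (A := S.presheaf.stalk (f.base x)) (I := fibIdeal f x)
    (stalkLin f₀ x) (stalkLin g₁ x) (stalkLin f₁ x) (stalkLin g₂ x) rfl
    (stalkLin_exact _ hex x) (stalkLin_surjective g₁ x) (stalkLin_surjective g₂ x) ext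
  refine ⟨(Sga2.PnFinal.forall_exists_congr eP (stalkLin f₀ x)).mpr h1, ?_⟩
  obtain ⟨e⟩ := StalkHom.exists_coker_equiv hL₁ hL₂ hP (g₂ ≫ f₁) q wq hq x eP
  rw [stalkLin_comp g₂ f₁ x] at e
  let imod := FlatMod.moduleStalkOver f Q x
  have itow : IsScalarTower (S.presheaf.stalk (f.base x)) (X.presheaf.stalk x) (Q.presheaf.stalk x) :=
    IsScalarTower.of_algebraMap_smul fun _ _ => rfl
  exact Module.Flat.of_linearEquiv (e.symm.restrictScalars (S.presheaf.stalk (f.base x)))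

end Groth.Agent.Sga2lef.H104.FlatQ
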