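import Groth.Agent.VarietyA.H0Equiv
import Groth.Agent.CohqB.HomSheaf
import Groth.Agent.CohqA.SerreTop
import Groth.Agent.Sga2.PnTwHom

/-!
# `Hom(G, ω)` as global sections of the internal Hom, linearly over the base ring
-/

set_option autoImplicit false
universe u

open AlgebraicGeometry TopologicalSpace CategoryTheory Opposite

noncomputable section

namespace Groth.Agent.Sga2lef.H104.HomSec

open Groth.Agent.CohqB.HomSheaf Groth.Agent.Sga2.PnTopDual Groth.Agent.CohqA.SerreTop
open Groth.Agent.VarietyA.H0Equiv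

variable (A : Type u) [CommRing A] {X : Scheme.{u}} [X.Over (Spec (CommRingCat.of A))]

/-- The global function given by `a : A`. -/
def gl (X : Scheme.{u}) [X.Over (Spec (CommRingCat.of A))] (a : A) : Γ(X, ⊤) :=
  Coh.toGlobal (X ↘ Spec (CommRingCat.of A)) a

theorem smulMod_app (M : X.Modules) (a : A) (U : X.Opens) (m : Γ(M, U)) :
    (Formal.smulMod A M a).app U m = X.presheaf.map (homOfLE (le_top : U ≤ ⊤)).op (gl A X a) • m :=
  rfl

theorem ofHom_smul {G ω : X.Modules} (φ : HomTo (sig A ω) G) (a : A) :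
    (ofHom (a • φ).hom ⊤ : Γ(homSheaf G ω, ⊤)) =
      gl A X a • ofHom φ.hom ⊤ := by
  apply sec_ext
  intro V hV m
  rfl

/-- Morphisms to `ω` and `H^0` of a module isomorphic to the internal Hom. -/
def homEquiv {G ω N : X.Modules} (i : homSheaf G ω ≅ N) : HomTo (sig A ω) G ≃ₗ[A] Coh.HH X N 0 :=
  let E : HomTo (sig A ω) G ≃+ Coh.HH X N 0 :=
    ((topEquiv G ω).symm.trans
      ({ toFun := i.hom.app ⊤
         invFun := i.inv.app ⊤
         left_inv := fun x => by
          change (i.hom ≫ i.inv).app ⊤ x = x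
          rw [i.hom_inv_id]; rfl
         right_inv := fun x => by
          change (i.inv ≫ i.hom).app ⊤ x = x
          rw [i.inv_hom_id]; rfl
         map_add' := fun x y => map_add (i.hom.app ⊤).hom x y } : Γ(homSheaf G ω, ⊤) ≃+ Γ(N, ⊤))).trans
      (hZeroEquiv N).symm
  { E with
    map_smul' := fun a φ => by
      change E (a • φ) = a • E φ
      apply (hZeroEquiv N).injective
      have h1 := hZeroEquiv_smul N (Coh.toGlobal (X ↘ Spec (CommRingCat.of A)) a) (E φ)
      refine Eq.trans ?_ h1.symm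
      have h2 : ∀ ψ : HomTo (sig A ω) G, hZeroEquiv N (E ψ) = i.hom.app ⊤ (ofHom ψ.hom ⊤) := fun ψ =>
        (hZeroEquiv N).apply_symm_apply _
      rw [h2, h2, ofHom_smul]
      exact i.hom.app_smul _ _ }

end Groth.Agent.Sga2lef.H104.HomSec
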