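import Groth.Agent.Sga2lef.H104.GlobLift
import Groth.Agent.Sga2lef.H104.CokerHom
import Groth.Agent.Sga2lef.H104.FlatH0
import Groth.Agent.Sga2lef.H104.HomSec
import Groth.Agent.Sga2lef.H104.AlgDual

/-!
# Injectivity on `H^r(-(-m))` from surjectivity of the dual and flatness of the dual cokernel
-/

set_option autoImplicit false
universe u

open AlgebraicGeometry TopologicalSpace CategoryTheory Opposite CategoryTheory.Limits

noncomputable section

namespace Groth.Agent.Sga2lef.H104.Glob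

open Groth.Agent.CohqB.HomSheaf Groth.Agent.Sga2.PnHomAdj Groth.Agent.Sga2.PnHomExact
open Groth.Agent.PerfB.TwistDer Groth.Agent.Sga2.PnTwHom Groth.Agent.Sga2.PnCoprod Groth.Agent.Sga2.PnHHDelta
open Groth.Agent.Sga2.PnSumCoh Groth.Agent.Sga2.PnShift Groth.Agent.Sga2.PnKey
open Groth.Agent.Sga2.PnTopDual Groth.Agent.CohqA.SerreTop Groth.Agent.Sga2lef.H104.TwT
open Groth.Agent.Sga2lef.H104.TopSum

variable {r : ℕ} {A : Type u} [CommRing A] [IsNoetherianRing A]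

/-- The cokernel of the map on homomorphisms to `ω` is projective. -/
theorem projective_coker {L₁ L₂ Q : (CohB1.ProjSpace r A).Modules} (hQ : Coh.IsCoh Q)
    (h : L₂ ⟶ L₁) (q : homSheaf L₂ (om r A) ⟶ Q) (wq : homMapLeft h (om r A) ≫ q = 0) (m : ℤ)
    (hfl : FlatMod.IsFlatOver (CohB1.ProjSpace r A ↘ Spec (CommRingCat.of A)) ((twM r A m).obj Q))
    (hvan : ∀ q : ℕ, 1 ≤ q → Subsingleton (Coh.HH (CohB1.ProjSpace r A) ((twM r A m).obj Q) q))
    (lift1 : ∀ b : tw r A (-m) ⟶ homSheaf L₂ (om r A), b ≫ q = 0 →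
      ∃ b' : tw r A (-m) ⟶ homSheaf L₁ (om r A), b' ≫ homMapLeft h (om r A) = b)
    (lift2 : ∀ g : tw r A (-m) ⟶ Q, ∃ g' : tw r A (-m) ⟶ homSheaf L₂ (om r A), g' ≫ q = g)
    (hgood : GoodA r A ((twM r A (-m)).obj L₂)) :
    Module.Projective A (HomTo (sig A (om r A)) ((twM r A (-m)).obj L₂) ⧸
      LinearMap.range (pre (sig A (om r A)) ((twM r A (-m)).map h))) := by
  obtain ⟨e1⟩ := CokerHom.exists_coker_equiv A (N := tw r A (-m)) h q wq lift1 lift2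
  have e2 : HomTo (sig A Q) (tw r A (-m)) ≃ₗ[A] Coh.HH (CohB1.ProjSpace r A) ((twM r A m).obj Q) 0 := by
    have e := HomSec.homEquiv A ((homFTw r A (-m)).app Q)
    rw [neg_neg] at e
    exact e
  have : IsProper (CohB1.ProjSpace r A ↘ Spec (CommRingCat.of A)) :=
    Ega3B.ProjProper.isProper_toSpec r A
  have h3 : Module.Flat A (Coh.HH (CohB1.ProjSpace r A) ((twM r A m).obj Q) 0) :=
    FlatH0.flat_HH0 A _ (isCoh_twM Q m hQ).1 hfl hvan
  have h4 : Module.Flat A (HomTo (sig A (om r A)) ((twM r A (-m)).obj L₂) ⧸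
      LinearMap.range (pre (sig A (om r A)) ((twM r A (-m)).map h))) :=
    Module.Flat.of_linearEquiv (e1.trans e2)
  have h5 := hgood.finHom
  have h6 : Module.Finite A (HomTo (sig A (om r A)) ((twM r A (-m)).obj L₂) ⧸
      LinearMap.range (pre (sig A (om r A)) ((twM r A (-m)).map h))) := inferInstance
  have h7 : Module.FinitePresentation A (HomTo (sig A (om r A)) ((twM r A (-m)).obj L₂) ⧸
      LinearMap.range (pre (sig A (om r A)) ((twM r A (-m)).map h))) :=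
    Module.finitePresentation_of_finite _ _
  exact Module.Flat.projective_of_finitePresentation

theorem injective_of_flat {K₁ K₂ L₀ L₁ L₂ Q : (CohB1.ProjSpace r A).Modules} (hK₁ : Coh.IsCoh K₁)
    (hL₀ : Coh.IsCoh L₀) (hL₁ : Coh.IsCoh L₁) (hL₂ : Coh.IsCoh L₂) (f₀ : K₁ ⟶ L₀) (g₁ : L₁ ⟶ K₁)
    (f₁ : K₂ ⟶ L₁) (g₂ : L₂ ⟶ K₂) [Epi g₂] [Epi g₁] (w : f₁ ≫ g₁ = 0)
    (hex : (ShortComplex.mk f₁ g₁ w).Exact)
    (q : homSheaf L₂ (om r A) ⟶ Q) (wq : homMapLeft (g₂ ≫ f₁) (om r A) ≫ q = 0)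
    (hq : (ShortComplex.mk (homMapLeft (g₂ ≫ f₁) (om r A)) q wq).Exact) [Epi q] (hQ : Coh.IsCoh Q)
    (hfl : ∀ m : ℤ, FlatMod.IsFlatOver (CohB1.ProjSpace r A ↘ Spec (CommRingCat.of A)) ((twM r A m).obj Q))
    (hepi : Epi (homMapLeft f₀ (om r A)))
    (hgood₁ : ∀ m : ℤ, (r : ℤ) ≤ m → GoodA r A ((twM r A (-m)).obj L₁))
    (hgood₂ : ∀ m : ℤ, (r : ℤ) ≤ m → GoodA r A ((twM r A (-m)).obj L₂)) :
    ∃ m₀ : ℤ, ∀ m : ℤ, m₀ ≤ m → Function.Injective ((TF r A).map ((twM r A (-m)).map f₀)).hom := by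
  have hN := isNoetherian_projSpace r A
  have hD₀ : Coh.IsCoh (homSheaf L₀ (om r A)) := isCoh_homSheaf hL₀ (isCoh_tw _)
  have hD : Coh.IsCoh (homSheaf K₁ (om r A)) := isCoh_homSheaf hK₁ (isCoh_tw _)
  have hD₁ : Coh.IsCoh (homSheaf L₁ (om r A)) := isCoh_homSheaf hL₁ (isCoh_tw _)
  have hD₂ : Coh.IsCoh (homSheaf L₂ (om r A)) := isCoh_homSheaf hL₂ (isCoh_tw _)
  have hI : Coh.IsCoh (kernel q) := PerfA.CohSerre.isCoh_kernel q hD₂ hQ.1
  have hl : Epi (kernel.lift q (homMapLeft (g₂ ≫ f₁) (om r A)) wq) := hq.epi_kernelLift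
  obtain ⟨m₁, h₁⟩ := GlobLift.exists_forall_lift hD₁ hI (kernel.lift q (homMapLeft (g₂ ≫ f₁) (om r A)) wq)
  obtain ⟨m₂, h₂⟩ := GlobLift.exists_forall_lift hD₂ hQ q
  obtain ⟨m₃, h₃⟩ := GlobLift.exists_forall_lift hD₀ hD (homMapLeft f₀ (om r A))
  obtain ⟨m₄, h₄⟩ := GlobLift.exists_serre Q hQ
  refine ⟨max (max m₁ m₂) (max (max m₃ m₄) r), fun m hm => ?_⟩
  have hm₁ : m₁ ≤ m := le_trans (le_trans (le_max_left _ _) (le_max_left _ _)) hm
  have hm₂ : m₂ ≤ m := le_trans (le_trans (le_max_right _ _) (le_max_left _ _)) hm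
  have hm₃ : m₃ ≤ m :=
    le_trans (le_trans (le_trans (le_max_left _ _) (le_max_left _ _)) (le_max_right _ _)) hm
  have hm₄ : m₄ ≤ m :=
    le_trans (le_trans (le_trans (le_max_right _ _) (le_max_left _ _)) (le_max_right _ _)) hm
  have hmr : (r : ℤ) ≤ m := le_trans (le_trans (le_max_right _ _) (le_max_right _ _)) hm
  have hpr := projective_coker hQ (g₂ ≫ f₁) q wq m (hfl m) (h₄ m hm₄)
    (fun b hb => by
      obtain ⟨b', hb'⟩ := h₁ m hm₁ (kernel.lift q b hb)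
      refine ⟨b', ?_⟩
      have := congrArg (fun t => t ≫ kernel.ι q) hb'
      simpa only [Category.assoc, kernel.lift_ι] using this)
    (h₂ m hm₂) (hgood₂ m hmr)
  have hlift := (lift_iff f₀ (tw r A (-m)) (om r A)).mpr (h₃ m hm₃)
  have hepi₁ : Epi ((twM r A (-m)).map g₁) := inferInstance
  refine AlgDual.injective_of_dual ((twM r A (-m)).map (g₂ ≫ f₁)) ((twM r A (-m)).map g₁)
    ((twM r A (-m)).map f₀) ?_ ?_ (hgood₂ m hmr).surj (hgood₁ m hmr).inj ?_ hpr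
  · rw [← Functor.map_comp, Category.assoc, w, CategoryTheory.Limits.comp_zero, Functor.map_zero]
  · exact GlobLift.surjective_map_of_epi _ (isCoh_twM L₁ (-m) hL₁).1 (isCoh_twM K₁ (-m) hK₁).1
  · intro φ hφ
    have hS : ((ShortComplex.mk f₁ g₁ w).map (twM r A (-m))).Exact := hex.map (twM r A (-m))
    have hg : Epi ((ShortComplex.mk f₁ g₁ w).map (twM r A (-m))).g := hepi₁
    have hφ' : (twM r A (-m)).map f₁ ≫ φ = 0 := by
      have : Epi ((twM r A (-m)).map g₂) := inferInstance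
      rw [← cancel_epi ((twM r A (-m)).map g₂), CategoryTheory.Limits.comp_zero, ← Category.assoc, ← Functor.map_comp]
      exact hφ
    obtain ⟨ψ, hψ⟩ := hlift (hS.desc φ hφ')
    refine ⟨ψ, ?_⟩
    rw [Category.assoc]
    have h7 : (twM r A (-m)).map f₀ ≫ ψ = hS.desc φ hφ' := hψ
    rw [h7]
    exact hS.g_desc φ hφ'

end Groth.Agent.Sga2lef.H104.Glob
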