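import Groth.Agent.Sga2lef.H104.TopSum
import Groth.Agent.CohqA.SerreTop

/-!
# Lifting maps from `O(-m)`, and right exactness of top cohomology on `P^r` over a Noetherian ring
-/

set_option autoImplicit false
universe u

open AlgebraicGeometry TopologicalSpace CategoryTheory Opposite CategoryTheory.Limits

noncomputable section

namespace Groth.Agent.Sga2lef.H104.GlobLift

open Groth.Agent.PerfB.TwistDer Groth.Agent.Dcoh Groth.Agent.Dcoh.Restrict
open Groth.Agent.Sga2.PnHHDelta Groth.Agent.Sga2lef.H104.TopSum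

variable (r : ℕ) (A : Type u) [CommRing A]

/-- `O ≅ O(-m)(m)`. -/
def unitTw (m : ℤ) :
    Coh.structureModule (CohB1.ProjSpace r A) ≅ (twM r A m).obj (tw r A (-m)) :=
  twZero r A ≪≫ (twMul r A (-m) m 0 (by ring)).symm

variable {r A}

/-- Lifting maps out of `O(-m)` from the surjectivity of `Γ(G(m)) → Γ(H(m))`. -/
theorem exists_lift {G H : (CohB1.ProjSpace r A).Modules} (f : G ⟶ H) (m : ℤ)
    (h : ∀ s : Γ((twM r A m).obj H, ⊤), ∃ t : Γ((twM r A m).obj G, ⊤),
      ((twM r A m).map f).app ⊤ t = s) (g : tw r A (-m) ⟶ H) :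
    ∃ g' : tw r A (-m) ⟶ G, g' ≫ f = g := by
  obtain ⟨t, ht⟩ := h (((unitTw r A m).hom ≫ (twM r A m).map g).app ⊤ (one ⊤))
  let F := (twMEquiv r A m).functor
  let q : F.obj (tw r A (-m)) ⟶ F.obj G := (unitTw r A m).inv ≫ unitHom t
  refine ⟨F.preimage q, ?_⟩
  apply F.map_injective
  rw [F.map_comp, F.map_preimage]
  have e1 : unitHom t ≫ (twM r A m).map f = (unitTw r A m).hom ≫ (twM r A m).map g := by
    rw [unitHom_comp, ht]
    apply unit_hom_ext
    rw [unitHom_app_one]
  change ((unitTw r A m).inv ≫ unitHom t) ≫ (twM r A m).map f = (twM r A m).map g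
  rw [Category.assoc, e1, Iso.inv_hom_id_assoc]

variable [IsNoetherianRing A]

theorem exists_forall_lift {G H : (CohB1.ProjSpace r A).Modules} (hG : Coh.IsCoh G)
    (hH : Coh.IsCoh H) (f : G ⟶ H) [Epi f] :
    ∃ m₀ : ℤ, ∀ m : ℤ, m₀ ≤ m → ∀ g : tw r A (-m) ⟶ H, ∃ g' : tw r A (-m) ⟶ G, g' ≫ f = g := by
  have : IsNoetherian (CohB1.ProjSpace r A) := isNoetherian_projSpace r A
  have : IsNoetherianRing (MvPolynomial (Fin (r + 1)) A) := inferInstance
  have hK : Coh.IsCoh (kernel f) := PerfA.CohSerre.isCoh_kernel f hG hH.1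
  obtain ⟨d₀, hd⟩ := Groth.Agent.S0847.result (CohB1.polyGrading r A) (kernel f) hK 1 one_pos
  refine ⟨d₀, fun m hm g => exists_lift f m ?_ g⟩
  let S : ShortComplex (CohB1.ProjSpace r A).Modules :=
    ShortComplex.mk (kernel.ι f) f (kernel.condition f)
  have hS : S.ShortExact :=
    { exact := ShortComplex.exact_of_f_is_kernel _ (kernelIsKernel f)
      mono_f := inferInstanceAs (Mono (kernel.ι f))
      epi_g := ‹Epi f› }
  have hS' : (S.map (twM r A m)).ShortExact := hS.map_of_exact (twM r A m)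
  exact Groth.Agent.Ega3B.SectExact.surjective_of_H1 hS' (hd m hm)

omit [IsNoetherianRing A] in
/-- `H^r` preserves epimorphisms between quasi-coherent modules on `P^r`. -/
theorem surjective_map_of_epi {M N : (CohB1.ProjSpace r A).Modules} (p : M ⟶ N) [Epi p] (hM : Coh.IsQCoh M)
    (hN : Coh.IsQCoh N) : Function.Surjective ((hF A (CohB1.ProjSpace r A) r).map p).hom := by
  have hK : Coh.IsQCoh (kernel p) := PerfA.QCohSerre.isQCoh_kernel p hM hN
  have hS : (ShortComplex.mk (kernel.ι p) p (kernel.condition p)).ShortExact :=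
    { exact := ShortComplex.exact_of_f_is_kernel _ (kernelIsKernel p) }
  have h0 : Subsingleton ((hF A (CohB1.ProjSpace r A) (r + 1)).obj (kernel p)) :=
    S0022.result r A (kernel p) (r + 1) (Nat.lt_succ_self r)
  exact (delta A (CohB1.ProjSpace r A)).surjective_g hS r

/-- Uniform Serre vanishing. -/
theorem exists_serre (G : (CohB1.ProjSpace r A).Modules) (hG : Coh.IsCoh G) :
    ∃ m₀ : ℤ, ∀ m : ℤ, m₀ ≤ m → ∀ q : ℕ, 1 ≤ q →
      Subsingleton (Coh.HH (CohB1.ProjSpace r A) ((twM r A m).obj G) q) := by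
  have : IsNoetherianRing (MvPolynomial (Fin (r + 1)) A) := inferInstance
  have h1 : ∀ q : ℕ, ∃ m₀ : ℤ, 1 ≤ q → ∀ m : ℤ, m₀ ≤ m →
      Subsingleton (Coh.HH (CohB1.ProjSpace r A) ((twM r A m).obj G) q) := by
    intro q
    by_cases hq : 1 ≤ q
    · obtain ⟨d₀, hd⟩ := Groth.Agent.S0847.result (CohB1.polyGrading r A) G hG q hq
      exact ⟨d₀, fun _ => hd⟩
    · exact ⟨0, fun h => absurd h hq⟩
  choose d hd using h1
  refine ⟨∑ q ∈ Finset.range (r + 1), |d q|, fun m hm q hq => ?_⟩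
  by_cases hqr : q < r + 1
  · refine hd q hq m (le_trans ((le_abs_self _).trans ?_) hm)
    exact Finset.single_le_sum (f := fun q => |d q|) (fun _ _ => abs_nonneg _) (Finset.mem_range.mpr hqr)
  · have hq' : Coh.IsQCoh ((twM r A m).obj G) := (isCoh_twM G m hG).1
    exact S0022.result r A _ q (by omega)

end Groth.Agent.Sga2lef.H104.GlobLift
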