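import Groth.Agent.FlatA.FibreCrit
import Mathlib.LinearAlgebra.Dual.Basis
import Mathlib.RingTheory.Flat.Stability
import Mathlib.LinearAlgebra.FreeModule.Finite.Matrix
import Mathlib.RingTheory.Noetherian.Basic

/-!
# Dualising a resolution over a flat local algebra: exactness and flatness of the cokernel

`A → R` local, `R` Noetherian and flat over `A`, `I = m_A R`.  If maps `K₁ → R/I` extend along `f₀ : K₁ → L₀`,
then maps `K₁ → R` extend along `f₀`, and the cokernel of `Hom(L₁, R) → Hom(L₂, R)` is flat over `A`.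
-/

set_option autoImplicit false
universe u v

open TensorProduct IsLocalRing

namespace Groth.Agent.Sga2lef.H104.LocCore

variable {R : Type u} [CommRing R] (I : Ideal R)

/-- A functional on a finite free module with values in `I` is in `I Hom(L, R)`. -/
theorem mem_smul_top_of_forall {L : Type v} [AddCommGroup L] [Module R L] [Module.Free R L] [Module.Finite R L]
    (φ : L →ₗ[R] R) (h : ∀ x, φ x ∈ I) : φ ∈ I • (⊤ : Submodule R (L →ₗ[R] R)) := by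
  classical
  let b := Module.Free.chooseBasis R L
  have h1 : φ = ∑ i, φ (b i) • b.coord i := by
    refine b.ext fun i => ?_
    rw [LinearMap.sum_apply, Finset.sum_eq_single i]
    · simp
    · intro j _ hj
      simp [hj.symm]
    · intro h; exact absurd (Finset.mem_univ i) h
  rw [h1]
  exact Submodule.sum_mem _ fun i _ => Submodule.smul_mem_smul (h _) trivial

theorem apply_mem_of_mem_smul_top {L : Type v} [AddCommGroup L] [Module R L]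
    (φ : L →ₗ[R] R) (h : φ ∈ I • (⊤ : Submodule R (L →ₗ[R] R))) (x : L) : φ x ∈ I := by
  refine Submodule.smul_induction_on h ?_ ?_
  · intro r hr n _
    rw [LinearMap.smul_apply, smul_eq_mul]
    exact I.mul_mem_right _ hr
  · intro a b ha hb
    rw [LinearMap.add_apply]
    exact I.add_mem ha hb

/-- Descent along a surjection. -/
theorem exists_descend {M₁ M₂ M₃ P : Type*} [AddCommGroup M₁] [AddCommGroup M₂] [AddCommGroup M₃]
    [AddCommGroup P] [Module R M₁] [Module R M₂] [Module R M₃] [Module R P]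
    (f : M₁ →ₗ[R] M₂) (g : M₂ →ₗ[R] M₃) (hfg : Function.Exact f g)
    (hg : Function.Surjective g) (φ : M₂ →ₗ[R] P) (hφ : ∀ x, φ (f x) = 0) :
    ∃ ψ : M₃ →ₗ[R] P, ∀ y, ψ (g y) = φ y := by
  have hk : LinearMap.ker g ≤ LinearMap.ker φ := by
    intro y hy
    obtain ⟨x, rfl⟩ := (hfg y).mp hy
    exact hφ x
  refine ⟨(LinearMap.ker g).liftQ φ hk ∘ₗ (g.quotKerEquivOfSurjective hg).symm.toLinearMap, fun y => ?_⟩
  have : (g.quotKerEquivOfSurjective hg).symm (g y) = Submodule.Quotient.mk y := by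
    rw [LinearEquiv.symm_apply_eq]; rfl
  change (LinearMap.ker g).liftQ φ hk ((g.quotKerEquivOfSurjective hg).symm (g y)) = _
  rw [this]
  exact Submodule.liftQ_apply _ _ _

variable {I}
variable {A : Type u} [CommRing A] [IsLocalRing A] [IsLocalRing R] [IsNoetherianRing R] [Algebra A R]
  [IsLocalHom (algebraMap A R)] [Module.Flat A R]

variable {K₁ K₂ L₀ L₁ L₂ : Type u} [AddCommGroup K₁] [Module R K₁] [AddCommGroup K₂] [Module R K₂]
  [AddCommGroup L₀] [Module R L₀] [AddCommGroup L₁] [Module R L₁] [AddCommGroup L₂] [Module R L₂]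
  [Module.Projective R L₀] [Module.Free R L₁] [Module.Finite R L₁] [Module.Free R L₂] [Module.Finite R L₂]
  (f₀ : K₁ →ₗ[R] L₀) (g₁ : L₁ →ₗ[R] K₁) (f₁ : K₂ →ₗ[R] L₁) (g₂ : L₂ →ₗ[R] K₂)

/-- The key step: an element of `Hom(L₁, R)` whose image in `Hom(L₂, R)` is in `I Hom(L₂, R)` is congruent to
an element coming from `L₀`. -/
theorem exists_congr (hI : I = (maximalIdeal A).map (algebraMap A R))
    (hex : Function.Exact f₁ g₁) (hg₁ : Function.Surjective g₁) (hg₂ : Function.Surjective g₂)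
    (ext : ∀ φ : K₁ →ₗ[R] R ⧸ I, ∃ ψ : L₀ →ₗ[R] R ⧸ I, ψ ∘ₗ f₀ = φ)
    (α : L₁ →ₗ[R] R) (hα : ∀ x, α (f₁ (g₂ x)) ∈ I) :
    ∃ ψ : L₀ →ₗ[R] R, ∀ x, α x - ψ (f₀ (g₁ x)) ∈ I := by
  let π : R →ₗ[R] R ⧸ I := Submodule.mkQ I
  obtain ⟨φ, hφ⟩ := exists_descend f₁ g₁ hex hg₁ (π ∘ₗ α) (fun x => by
    obtain ⟨y, rfl⟩ := hg₂ x
    exact (Submodule.Quotient.mk_eq_zero I).mpr (hα y))
  obtain ⟨ψ', hψ'⟩ := ext φ
  obtain ⟨ψ, hψ⟩ := Module.projective_lifting_property π ψ' (Submodule.mkQ_surjective I)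
  refine ⟨ψ, fun x => ?_⟩
  rw [← Submodule.Quotient.mk_eq_zero I]
  have h1 : π (α x) = π (ψ (f₀ (g₁ x))) := by
    have h2 : π (ψ (f₀ (g₁ x))) = ψ' (f₀ (g₁ x)) := LinearMap.congr_fun hψ _
    have h3 : ψ' (f₀ (g₁ x)) = φ (g₁ x) := LinearMap.congr_fun hψ' _
    rw [h2, h3, hφ]; rfl
  have h4 : π (α x - ψ (f₀ (g₁ x))) = 0 := by rw [map_sub, h1, sub_self]
  exact h4

/-- The map `Hom(L₀, R) → Hom(L₁, R)`. -/
abbrev d {L₀ L₁ : Type u} [AddCommGroup L₀] [Module R L₀] [AddCommGroup L₁] [Module R L₁] (h : L₁ →ₗ[R] L₀) :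
    (L₀ →ₗ[R] R) →ₗ[R] (L₁ →ₗ[R] R) := LinearMap.lcomp R R h

/-- The induced map `Hom(L₁, R) / im Hom(L₀, R) → Hom(L₂, R)`. -/
noncomputable def uMap (h : (f₀ ∘ₗ g₁) ∘ₗ (f₁ ∘ₗ g₂) = 0) :
    ((L₁ →ₗ[R] R) ⧸ LinearMap.range (d (R := R) (f₀ ∘ₗ g₁))) →ₗ[R] (L₂ →ₗ[R] R) :=
  (LinearMap.range (d (R := R) (f₀ ∘ₗ g₁))).liftQ (d (R := R) (f₁ ∘ₗ g₂)) (by
    rintro _ ⟨ψ, rfl⟩
    rw [LinearMap.mem_ker]
    ext x
    have h1 := LinearMap.congr_fun h x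
    change ψ (((f₀ ∘ₗ g₁) ∘ₗ (f₁ ∘ₗ g₂)) x) = 0
    rw [h1, LinearMap.zero_apply, map_zero])

theorem uMap_mk (h : (f₀ ∘ₗ g₁) ∘ₗ (f₁ ∘ₗ g₂) = 0) (α : L₁ →ₗ[R] R) :
    uMap f₀ g₁ f₁ g₂ h (Submodule.Quotient.mk α) = α ∘ₗ (f₁ ∘ₗ g₂) := rfl

theorem range_uMap (h : (f₀ ∘ₗ g₁) ∘ₗ (f₁ ∘ₗ g₂) = 0) :
    LinearMap.range (uMap f₀ g₁ f₁ g₂ h) = LinearMap.range (d (R := R) (f₁ ∘ₗ g₂)) := by
  rw [uMap, Submodule.range_liftQ]

/-- **Core lemma.** -/
theorem core (hI : I = (maximalIdeal A).map (algebraMap A R))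
    (hex : Function.Exact f₁ g₁) (hg₁ : Function.Surjective g₁) (hg₂ : Function.Surjective g₂)
    (ext : ∀ φ : K₁ →ₗ[R] R ⧸ I, ∃ ψ : L₀ →ₗ[R] R ⧸ I, ψ ∘ₗ f₀ = φ) :
    (∀ φ : K₁ →ₗ[R] R, ∃ ψ : L₀ →ₗ[R] R, ψ ∘ₗ f₀ = φ) ∧
      Module.Flat A ((L₂ →ₗ[R] R) ⧸ LinearMap.range (d (R := R) (f₁ ∘ₗ g₂))) := by
  have h0 : (f₀ ∘ₗ g₁) ∘ₗ (f₁ ∘ₗ g₂) = 0 := by
    ext x
    change f₀ (g₁ (f₁ (g₂ x))) = 0
    rw [hex.apply_apply_eq_zero, map_zero]
  have hfl : Module.Flat A (L₂ →ₗ[R] R) := Module.Flat.trans A R _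
  have hinj : Function.Injective (LinearMap.lTensor (ResidueField A)
      ((uMap f₀ g₁ f₁ g₂ h0).restrictScalars A)) := by
    refine FlatA.FibreCrit.lTensor_quotient_injective_of_comap_smul_le _ (maximalIdeal A) ?_
    intro n hn
    obtain ⟨α, rfl⟩ := Submodule.Quotient.mk_surjective _ n
    rw [Submodule.mem_comap, FlatA.FibreCrit.mem_smul_top_iff_of_isScalarTower (S := R), ← hI] at hn
    rw [FlatA.FibreCrit.mem_smul_top_iff_of_isScalarTower (S := R), ← hI]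
    have h1 : ∀ x, α (f₁ (g₂ x)) ∈ I := fun x => apply_mem_of_mem_smul_top I _ hn x
    obtain ⟨ψ, hψ⟩ := exists_congr f₀ g₁ f₁ g₂ hI hex hg₁ hg₂ ext α h1
    have h2 : α - ψ ∘ₗ (f₀ ∘ₗ g₁) ∈ I • (⊤ : Submodule R (L₁ →ₗ[R] R)) :=
      mem_smul_top_of_forall I _ hψ
    have h3 : (Submodule.Quotient.mk α : (L₁ →ₗ[R] R) ⧸ LinearMap.range (d (R := R) (f₀ ∘ₗ g₁))) =
        Submodule.mkQ _ (α - ψ ∘ₗ (f₀ ∘ₗ g₁)) := by
      rw [map_sub, Submodule.mkQ_apply, Submodule.mkQ_apply,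
        (Submodule.Quotient.mk_eq_zero _).mpr (show ψ ∘ₗ (f₀ ∘ₗ g₁) ∈ LinearMap.range (d (R := R) (f₀ ∘ₗ g₁)) from
          ⟨ψ, rfl⟩), sub_zero]
    rw [h3]
    have h4 := Submodule.mem_map_of_mem (f := Submodule.mkQ (LinearMap.range (d (R := R) (f₀ ∘ₗ g₁)))) h2
    rw [Submodule.map_smul''] at h4
    exact Submodule.smul_mono le_rfl le_top h4
  obtain ⟨h5, h6⟩ := FlatA.FibreCrit.injective_and_flat_of_residue_injective (S := R)
    FlatA.FibreCrit.map_maximalIdeal_le_jacobson _ hinj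
  constructor
  · intro φ
    have h7 : uMap f₀ g₁ f₁ g₂ h0 (Submodule.Quotient.mk (φ ∘ₗ g₁)) = 0 := by
      rw [uMap_mk]
      ext x
      change φ (g₁ (f₁ (g₂ x))) = 0
      rw [hex.apply_apply_eq_zero, map_zero]
    have h8 := h5 (h7.trans (map_zero _).symm)
    obtain ⟨ψ, hψ⟩ := (Submodule.Quotient.mk_eq_zero _).mp h8
    refine ⟨ψ, ?_⟩
    ext y
    obtain ⟨x, rfl⟩ := hg₁ y
    exact LinearMap.congr_fun hψ x
  · have h9 : LinearMap.range ((uMap f₀ g₁ f₁ g₂ h0).restrictScalars A) =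
        (LinearMap.range (d (R := R) (f₁ ∘ₗ g₂))).restrictScalars A := by
      rw [← range_uMap f₀ g₁ f₁ g₂ h0]
      rfl
    rw [h9] at h6
    exact h6

end Groth.Agent.Sga2lef.H104.LocCore
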