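import Groth.Agent.Sga2lef.H104.TwPair

/-!
# The monomial basis of homogeneous polynomials
-/

set_option autoImplicit false
universe u

open MvPolynomial CohB1

noncomputable section

namespace Groth.Agent.Sga2lef.H104.MonoBasis

open Groth.Agent.FormalB.PnSections Groth.Agent.Sga2lef.H104.TwPair

variable (n : ℕ) (R : Type u) [CommRing R]

/-- exponents of degree `e` -/
abbrev Ex (e : ℕ) : Set (Fin (n + 1) →₀ ℕ) := {c | c.degree = e}

instance finite_Ex (e : ℕ) : Finite (Ex n e) := by
  have h : (Ex n e) ⊆ ((Finset.univ : Finset (Fin (n + 1))).finsuppAntidiag e : Set (Fin (n + 1) →₀ ℕ)) := by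
    intro c hc
    simp only [Finset.mem_coe, Finset.mem_finsuppAntidiag]
    refine ⟨?_, Finset.subset_univ _⟩
    rw [← Finsupp.degree_eq_sum]
    exact hc
  exact (Finset.finite_toSet _).subset h

theorem restrictSupport_eq (e : ℕ) : restrictSupport R (Ex n e) = polyGrading n R e := by
  refine Eq.trans ?_ (homogeneousSubmodule_eq_finsupp_supported (Fin (n + 1)) R e).symm
  rfl

/-- The monomial basis. -/
def monoBasis (e : ℕ) : Module.Basis (Ex n e) R (polyGrading n R e) :=
  (basisRestrictSupport R (Ex n e)).map (LinearEquiv.ofEq _ _ (restrictSupport_eq n R e))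

theorem monoBasis_apply (e : ℕ) (c : Ex n e) : monoBasis n R e c = mono c.1 c.2 := by
  apply Subtype.ext
  rw [monoBasis, Module.Basis.map_apply]
  change ((basisRestrictSupport R (Ex n e) c : restrictSupport R (Ex n e)) : MvPolynomial (Fin (n + 1)) R) =
    monomial c.1 1
  have h : (basisRestrictSupport R (Ex n e)).repr ⟨monomial c.1 1, by
      rw [monomial_mem_restrictSupport]; exact Or.inl c.2⟩ = Finsupp.single c 1 := by
    ext c'
    change coeff c'.1 (monomial c.1 (1 : R)) = _
    classical
    rw [coeff_monomial, Finsupp.single_apply]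
    simp only [Subtype.ext_iff]
  have h2 := congrArg (basisRestrictSupport R (Ex n e)).repr.symm h
  rw [LinearEquiv.symm_apply_apply] at h2
  exact (congrArg Subtype.val h2).symm

instance free_poly (e : ℕ) : Module.Free R (polyGrading n R e) := Module.Free.of_basis (monoBasis n R e)

instance finite_poly (e : ℕ) : Module.Finite R (polyGrading n R e) := Module.Finite.of_basis (monoBasis n R e)

end Groth.Agent.Sga2lef.H104.MonoBasis
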