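import Mathlib.LinearAlgebra.Dual.Basis
import Mathlib.LinearAlgebra.Dual.Defs
import Mathlib.RingTheory.OrzechProperty
import Mathlib.RingTheory.FiniteType
import Mathlib.LinearAlgebra.Dual.Lemmas

/-!
# Perfect pairings over a ring: enlarging one side
-/

set_option autoImplicit false

namespace Groth.Agent.Sga2lef.H104.PairAlg

variable {R : Type*} [CommRing R] {S T H W : Type*} [AddCommGroup S] [Module R S] [AddCommGroup T] [Module R T]
  [AddCommGroup H] [Module R H] [AddCommGroup W] [Module R W] [Module.Free R S] [Module.Finite R S]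

theorem exists_of_perfect (β : T →ₗ[R] S →ₗ[R] W) (w : W ≃ₗ[R] R) (hβ : Function.Bijective β) (μ : T →ₗ[R] W) :
    ∃ s : S, ∀ t, μ t = β t s := by
  let a : T ≃ₗ[R] (S →ₗ[R] W) := LinearEquiv.ofBijective β hβ
  let Λ : Module.Dual R (Module.Dual R S) :=
    w.toLinearMap ∘ₗ μ ∘ₗ a.symm.toLinearMap ∘ₗ (LinearMap.compRight R w.symm.toLinearMap : (S →ₗ[R] R) →ₗ[R] (S →ₗ[R] W))
  obtain ⟨s, hs⟩ := (Module.evalEquiv R S).surjective Λ
  refine ⟨s, fun t => ?_⟩
  have h1 := LinearMap.congr_fun hs (w.toLinearMap ∘ₗ β t)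
  have h2 : Module.evalEquiv R S s (w.toLinearMap ∘ₗ β t) = w (β t s) := rfl
  rw [h2] at h1
  have h3 : Λ (w.toLinearMap ∘ₗ β t) = w (μ t) := by
    change w (μ (a.symm (w.symm.toLinearMap ∘ₗ (w.toLinearMap ∘ₗ β t)))) = _
    have h4 : w.symm.toLinearMap ∘ₗ (w.toLinearMap ∘ₗ β t) = a t := by
      ext x
      exact w.symm_apply_apply _
    rw [h4, LinearEquiv.symm_apply_apply]
  rw [h3] at h1
  exact (w.injective h1).symm

/-- If the pairing restricted along `j : S → H` is perfect and `H ≅ S` then the pairing is perfect. -/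
theorem perfect_of_sub (β : T →ₗ[R] H →ₗ[R] W) (w : W ≃ₗ[R] R) (j : S →ₗ[R] H) (e : H ≃ₗ[R] S)
    (hβ : Function.Bijective (fun t => β t ∘ₗ j)) : Function.Bijective β ∧ Function.Bijective j := by
  let β' : T →ₗ[R] S →ₗ[R] W := (LinearMap.lcomp R W j) ∘ₗ β
  have hβ' : Function.Bijective β' := hβ
  have hΨs : ∀ μ : T →ₗ[R] W, ∃ s : S, β.flip (j s) = μ := fun μ => by
    obtain ⟨s, hs⟩ := exists_of_perfect β' w hβ' μ
    exact ⟨s, LinearMap.ext fun t => (hs t).symm⟩
  have hj0 : ∀ s, β.flip (j s) = 0 → s = 0 := by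
    intro s hs
    rw [← Module.forall_dual_apply_eq_zero_iff R]
    intro f
    obtain ⟨t, ht⟩ := hβ'.2 (w.symm.toLinearMap ∘ₗ f)
    have h1 : w.symm (f s) = 0 := by
      have h2 : β' t s = w.symm (f s) := LinearMap.congr_fun ht s
      rw [← h2]
      exact LinearMap.congr_fun hs t
    simpa using h1
  let b : S ≃ₗ[R] (T →ₗ[R] W) := LinearEquiv.ofBijective (β.flip ∘ₗ j)
    ⟨(injective_iff_map_eq_zero _).mpr hj0, fun μ => hΨs μ⟩
  let ε : S →ₗ[R] S := b.symm.toLinearMap ∘ₗ β.flip ∘ₗ e.symm.toLinearMap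
  have hε : Function.Surjective ε := by
    intro s
    refine ⟨e (j s), ?_⟩
    change b.symm (β.flip (e.symm (e (j s)))) = s
    rw [LinearEquiv.symm_apply_apply, LinearEquiv.symm_apply_eq]
    rfl
  have hε' : Function.Injective ε := OrzechProperty.injective_of_surjective_endomorphism ε hε
  have hΨi : Function.Injective β.flip := by
    intro x y hxy
    have h1 : ε (e x) = ε (e y) := by
      change b.symm (β.flip (e.symm (e x))) = b.symm (β.flip (e.symm (e y)))
      rw [LinearEquiv.symm_apply_apply, LinearEquiv.symm_apply_apply, hxy]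
    exact e.injective (hε' h1)
  have hj : Function.Surjective j := by
    intro x
    obtain ⟨s, hs⟩ := hΨs (β.flip x)
    exact ⟨s, hΨi hs⟩
  refine ⟨⟨?_, ?_⟩, ?_, hj⟩
  · intro x y hxy
    apply hβ.1
    change β x ∘ₗ j = β y ∘ₗ j
    rw [hxy]
  · intro lam
    obtain ⟨t, ht⟩ := hβ.2 (lam ∘ₗ j)
    refine ⟨t, ?_⟩
    ext x
    obtain ⟨s, rfl⟩ := hj x
    exact LinearMap.congr_fun ht s
  · rw [injective_iff_map_eq_zero]
    intro s hs
    exact hj0 s (by rw [hs, map_zero])

end Groth.Agent.Sga2lef.H104.PairAlg
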