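import Groth.Agent.Sga2lef.H104.Glob
import Groth.Agent.Sga2lef.H104.FlatQ
import Groth.Agent.Sga67.PushFlat
import Groth.Agent.Lefx.H80.FibTr
import Groth.Agent.Lefx.H80.FibPn
import Groth.Agent.Sga2lef.H106.UFlat

/-!
# Vanishing of `H^i(P^r_A, F(-m))`, `m ≫ 0`, from vanishing of the local cohomology of the fibres
-/

set_option autoImplicit false
universe u

open AlgebraicGeometry TopologicalSpace CategoryTheory Opposite CategoryTheory.Limits

noncomputable section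

namespace Groth.Agent.Sga2lef.H104.PnMain

open Groth.Agent.CohqB.HomSheaf Groth.Agent.Sga2.PnHomAdj Groth.Agent.Sga2.PnHomExact
open Groth.Agent.PerfB.TwistDer Groth.Agent.Sga2.PnTwHom Groth.Agent.Sga2.PnCoprod Groth.Agent.Sga2.PnHHDelta
open Groth.Agent.Sga2.PnSumCoh Groth.Agent.Sga2.PnShift Groth.Agent.Sga2.PnKey
open Groth.Agent.Sga2.PnTopDual Groth.Agent.CohqA.SerreTop Groth.Agent.Sga2lef.H104.TwT
open Groth.Agent.Sga2lef.H104.TopSum Groth.Agent.CycB.StalkExact Groth.Agent.Sga2lef.H104.FlatQ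
open scoped ZeroObject

variable {r : ℕ} {A : Type u} [CommRing A] [IsNoetherianRing A]

attribute [local instance] Groth.Agent.Lefx.H80.FibTr.isLocalRing_quot

instance isLocalRing_fib {X S : Scheme.{u}} (f : X ⟶ S) (x : X) :
    IsLocalRing (X.presheaf.stalk x ⧸ fibIdeal f x) :=
  Groth.Agent.Lefx.H80.FibTr.isLocalRing_quot f x

variable
  (U1 : ∀ Q : (CohB1.ProjSpace r A).Modules, Coh.IsCoh Q →
    (∀ x : CohB1.ProjSpace r A, IsClosed ({x} : Set (CohB1.ProjSpace r A)) →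
      FlatMod.IsFlatOverAt (CohB1.ProjSpace r A ↘ Spec (CommRingCat.of A)) Q x) →
    FlatMod.IsFlatOver (CohB1.ProjSpace r A ↘ Spec (CommRingCat.of A)) Q)
  (U5 : ∀ (Q : (CohB1.ProjSpace r A).Modules) (m : ℤ),
    FlatMod.IsFlatOver (CohB1.ProjSpace r A ↘ Spec (CommRingCat.of A)) Q →
    FlatMod.IsFlatOver (CohB1.ProjSpace r A ↘ Spec (CommRingCat.of A)) ((twM r A m).obj Q))

include U1 U5 in
theorem injective_of_ext {K₁ K₂ L₀ L₁ L₂ : (CohB1.ProjSpace r A).Modules} (hK₁ : Coh.IsCoh K₁)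
    (hL₀ : Coh.IsCoh L₀) (hL₁ : Coh.IsCoh L₁) (hL₂ : Coh.IsCoh L₂)
    (hf₀ : FlatMod.IsFinLocFree L₀) (hf₁ : FlatMod.IsFinLocFree L₁) (hf₂ : FlatMod.IsFinLocFree L₂)
    (f₀ : K₁ ⟶ L₀) (g₁ : L₁ ⟶ K₁) (f₁ : K₂ ⟶ L₁) (g₂ : L₂ ⟶ K₂) [Epi g₂] [Epi g₁] (w : f₁ ≫ g₁ = 0)
    (hex : (ShortComplex.mk f₁ g₁ w).Exact)
    (hgood₁ : ∀ m : ℤ, (r : ℤ) ≤ m → GoodA r A ((twM r A (-m)).obj L₁))
    (hgood₂ : ∀ m : ℤ, (r : ℤ) ≤ m → GoodA r A ((twM r A (-m)).obj L₂))
    (ext : ∀ x : CohB1.ProjSpace r A, IsClosed ({x} : Set (CohB1.ProjSpace r A)) →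
      ∀ φ : K₁.presheaf.stalk x →ₗ[(CohB1.ProjSpace r A).presheaf.stalk x]
        ((CohB1.ProjSpace r A).presheaf.stalk x ⧸ fibIdeal (CohB1.ProjSpace r A ↘ Spec (CommRingCat.of A)) x),
      ∃ ψ : L₀.presheaf.stalk x →ₗ[(CohB1.ProjSpace r A).presheaf.stalk x]
        ((CohB1.ProjSpace r A).presheaf.stalk x ⧸ fibIdeal (CohB1.ProjSpace r A ↘ Spec (CommRingCat.of A)) x),
        ψ ∘ₗ stalkLin f₀ x = φ) :
    ∃ m₀ : ℤ, ∀ m : ℤ, m₀ ≤ m → Function.Injective ((TF r A).map ((twM r A (-m)).map f₀)).hom := by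
  have hN := isNoetherian_projSpace r A
  have hP : Coh.IsCoh (om r A) := isCoh_tw _
  have hD₁ : Coh.IsCoh (homSheaf L₁ (om r A)) := isCoh_homSheaf hL₁ hP
  have hD₂ : Coh.IsCoh (homSheaf L₂ (om r A)) := isCoh_homSheaf hL₂ hP
  have hQ : Coh.IsCoh (cokernel (homMapLeft (g₂ ≫ f₁) (om r A))) :=
    PerfA.CohSerre.isCoh_cokernel _ hD₁.1 hD₂
  have hqex : (ShortComplex.mk (homMapLeft (g₂ ≫ f₁) (om r A))
      (cokernel.π (homMapLeft (g₂ ≫ f₁) (om r A))) (cokernel.condition _)).Exact :=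
    ShortComplex.exact_cokernel _
  have hflP : Flat (CohB1.ProjSpace r A ↘ Spec (CommRingCat.of A)) := Sga67.PushFlat.flat_toSpec r A
  have main : ∀ x : CohB1.ProjSpace r A, IsClosed ({x} : Set (CohB1.ProjSpace r A)) → _ := fun x hx =>
    FlatQ.main (CohB1.ProjSpace r A ↘ Spec (CommRingCat.of A)) hK₁ hL₀ hL₁ hL₂ hP hf₀ hf₁ hf₂
      f₀ g₁ f₁ g₂ w hex _ _ hqex x
      (Flat.stalkMap (CohB1.ProjSpace r A ↘ Spec (CommRingCat.of A)) x)
      (Sga2.PnFinal.exists_stalk_equiv r A _ x).some (ext x hx)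
  refine Glob.injective_of_flat hK₁ hL₀ hL₁ hL₂ f₀ g₁ f₁ g₂ w hex _ _ hqex hQ
    (fun m => U5 _ m (U1 _ hQ fun x hx => (main x hx).2)) ?_ hgood₁ hgood₂
  exact (Sga2.PnStalkHom.epi_homMapLeft_iff hK₁ hL₀ hP f₀).mpr fun x hx => (main x hx).1

variable (H2 : ∀ x : CohB1.ProjSpace r A, IsClosed ({x} : Set (CohB1.ProjSpace r A)) →
    IsRegularLocalRing ((CohB1.ProjSpace r A).presheaf.stalk x ⧸
      fibIdeal (CohB1.ProjSpace r A ↘ Spec (CommRingCat.of A)) x) ∧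
    ringKrullDim ((CohB1.ProjSpace r A).presheaf.stalk x ⧸
      fibIdeal (CohB1.ProjSpace r A ↘ Spec (CommRingCat.of A)) x) = r)

include U1 U5 H2 in
/-- Degree `i < r`. -/
theorem lt (F : (CohB1.ProjSpace r A).Modules) (hF : Coh.IsCoh F)
    (hfl : FlatMod.IsFlatOver (CohB1.ProjSpace r A ↘ Spec (CommRingCat.of A)) F) (i : ℕ) (hi : i < r)
    (hLC : ∀ x : CohB1.ProjSpace r A, IsClosed ({x} : Set (CohB1.ProjSpace r A)) →
      Subsingleton (LocCoh.H (IsLocalRing.maximalIdeal ((CohB1.ProjSpace r A).presheaf.stalk x ⧸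
        fibIdeal (CohB1.ProjSpace r A ↘ Spec (CommRingCat.of A)) x)) i
        (LocAlg.Qt (fibIdeal (CohB1.ProjSpace r A ↘ Spec (CommRingCat.of A)) x) (F.presheaf.stalk x)))) :
    ∃ m₀ : ℤ, ∀ m : ℤ, m₀ ≤ m →
      Subsingleton (Coh.HH (CohB1.ProjSpace r A) ((twM r A (-m)).obj F) i) := by
  have hN := isNoetherian_projSpace r A
  obtain ⟨K, L, R, rfl⟩ := exists_res F hF
  obtain ⟨j, hj⟩ : ∃ j, i + j + 1 = r := ⟨r - i - 1, by omega⟩
  have hL := isCoh_L R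
  have hLf := isFinLocFree_L R
  have e1 : Epi (R.g (j + 1 + 1)) := (R.ex (j + 1 + 1)).epi_g
  have e2 : Epi (R.g (j + 1)) := (R.ex (j + 1)).epi_g
  obtain ⟨m₀, hm₀⟩ := injective_of_ext U1 U5 (R.coh (j + 1)) (hL j) (hL (j + 1)) (hL (j + 1 + 1))
    (hLf j) (hLf (j + 1)) (hLf (j + 1 + 1)) (R.f j) (R.g (j + 1)) (R.f (j + 1)) (R.g (j + 1 + 1))
    (R.w (j + 1)) (R.ex (j + 1)).exact (good_L R (j + 1)) (good_L R (j + 1 + 1)) (fun x hx => by
      let f := CohB1.ProjSpace r A ↘ Spec (CommRingCat.of A)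
      let alg : Algebra ((Spec (CommRingCat.of A)).presheaf.stalk (f.base x))
        ((CohB1.ProjSpace r A).presheaf.stalk x) := (f.stalkMap x).hom.toAlgebra
      have iloc : IsLocalHom (algebraMap ((Spec (CommRingCat.of A)).presheaf.stalk (f.base x))
          ((CohB1.ProjSpace r A).presheaf.stalk x)) :=
        inferInstanceAs (IsLocalHom (f.stalkMap x).hom)
      have hflP : Flat f := Sga67.PushFlat.flat_toSpec r A
      have iflat : Module.Flat ((Spec (CommRingCat.of A)).presheaf.stalk (f.base x))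
        ((CohB1.ProjSpace r A).presheaf.stalk x) := Flat.stalkMap f x
      have := (H2 x hx).1
      let mK := fun t => FlatMod.moduleStalkOver f (K t) x
      let mL := fun t => FlatMod.moduleStalkOver f (L t) x
      have tK : ∀ t, IsScalarTower ((Spec (CommRingCat.of A)).presheaf.stalk (f.base x))
          ((CohB1.ProjSpace r A).presheaf.stalk x) ((K t).presheaf.stalk x) :=
        fun t => IsScalarTower.of_algebraMap_smul fun _ _ => rfl
      have tL : ∀ t, IsScalarTower ((Spec (CommRingCat.of A)).presheaf.stalk (f.base x))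
          ((CohB1.ProjSpace r A).presheaf.stalk x) ((L t).presheaf.stalk x) :=
        fun t => IsScalarTower.of_algebraMap_smul fun _ _ => rfl
      have h1 : ∀ t, Module.Finite ((CohB1.ProjSpace r A).presheaf.stalk x) ((K t).presheaf.stalk x) :=
        fun t => Divis.StalkMod.finite_stalk (R.coh t) x
      have h2 := fun t => Divis.StalkMod.finite_free_stalk (hL t).1 (hLf t) x
      have h3 := fun t => (h2 t).1
      have h4 := fun t => (h2 t).2
      have h5 := fun t => stalkLin_shortExact _ (R.ex t) x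
      exact LocAlg.ext_of_lc (A := (Spec (CommRingCat.of A)).presheaf.stalk (f.base x))
        (R := (CohB1.ProjSpace r A).presheaf.stalk x) (I := fibIdeal f x) rfl r (H2 x hx).2 i j (by omega)
        (fun t => (K t).presheaf.stalk x) (fun t => (L t).presheaf.stalk x)
        (fun t => stalkLin (R.f t) x) (fun t => stalkLin (R.g t) x)
        (fun t => (h5 t).1) (fun t => (h5 t).2.1) (fun t => (h5 t).2.2) (hfl x) (hLC x hx))
  refine ⟨max m₀ 0, fun m hm => ?_⟩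
  exact (R.main m (le_of_max_le_right hm) i j hj).mpr (hm₀ m (le_of_max_le_left hm))

include U1 U5 H2 in
theorem eq_aux (Z : (CohB1.ProjSpace r A).Modules) (hZ : IsZero Z) (hZc : Coh.IsCoh Z)
    (hZf : FlatMod.IsFinLocFree Z) (F : (CohB1.ProjSpace r A).Modules) (hF : Coh.IsCoh F)
    (hLC : ∀ x : CohB1.ProjSpace r A, IsClosed ({x} : Set (CohB1.ProjSpace r A)) →
      Subsingleton (LocCoh.H (IsLocalRing.maximalIdeal ((CohB1.ProjSpace r A).presheaf.stalk x ⧸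
        fibIdeal (CohB1.ProjSpace r A ↘ Spec (CommRingCat.of A)) x)) r
        (LocAlg.Qt (fibIdeal (CohB1.ProjSpace r A ↘ Spec (CommRingCat.of A)) x) (F.presheaf.stalk x)))) :
    ∃ m₀ : ℤ, ∀ m : ℤ, m₀ ≤ m →
      Subsingleton ((TF r A).obj ((twM r A (-m)).obj F)) := by
  have hN := isNoetherian_projSpace r A
  obtain ⟨K, L, R, rfl⟩ := exists_res F hF
  have hL := isCoh_L R
  have hLf := isFinLocFree_L R
  have e1 : Epi (R.g (0 + 1)) := (R.ex (0 + 1)).epi_g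
  have e2 : Epi (R.g 0) := (R.ex 0).epi_g
  obtain ⟨m₀, hm₀⟩ := injective_of_ext U1 U5 (K₁ := K 0) (K₂ := K (0 + 1)) (L₀ := Z) (L₁ := L 0)
    (L₂ := L (0 + 1)) (R.coh 0) hZc (hL 0) (hL (0 + 1))
    hZf (hLf 0) (hLf (0 + 1)) 0 (R.g 0) (R.f 0)
    (R.g (0 + 1)) (R.w 0) (R.ex 0).exact (good_L R 0) (good_L R (0 + 1)) (fun x hx φ => by
      have := (H2 x hx).1
      have h1 : Module.Finite ((CohB1.ProjSpace r A).presheaf.stalk x) ((K 0).presheaf.stalk x) :=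
        Divis.StalkMod.finite_stalk (R.coh 0) x
      have h2 : φ = 0 := LocAlg.ext_of_lc_top r (H2 x hx).2 _ (hLC x hx) φ
      refine ⟨0, ?_⟩
      rw [h2]
      rfl)
  refine ⟨m₀, fun m hm => ?_⟩
  have h1 := hm₀ m hm
  have h2 : IsZero ((TF r A).obj ((twM r A (-m)).obj Z)) :=
    Functor.map_isZero _ (Functor.map_isZero _ hZ)
  have h3 : Subsingleton ((TF r A).obj ((twM r A (-m)).obj Z)) := ModuleCat.subsingleton_of_isZero h2
  exact h1.subsingleton

include U1 U5 H2 in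
/-- Degree `r`. -/
theorem eq (F : (CohB1.ProjSpace r A).Modules) (hF : Coh.IsCoh F)
    (hLC : ∀ x : CohB1.ProjSpace r A, IsClosed ({x} : Set (CohB1.ProjSpace r A)) →
      Subsingleton (LocCoh.H (IsLocalRing.maximalIdeal ((CohB1.ProjSpace r A).presheaf.stalk x ⧸
        fibIdeal (CohB1.ProjSpace r A ↘ Spec (CommRingCat.of A)) x)) r
        (LocAlg.Qt (fibIdeal (CohB1.ProjSpace r A ↘ Spec (CommRingCat.of A)) x) (F.presheaf.stalk x)))) :
    ∃ m₀ : ℤ, ∀ m : ℤ, m₀ ≤ m →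
      Subsingleton (Coh.HH (CohB1.ProjSpace r A) ((twM r A (-m)).obj F) r) := by
  have z : IsZero (∐ fun j : Fin 0 => tw r A ((fun _ => 0 : Fin 0 → ℤ) j)) := by
    rw [IsZero.iff_id_eq_zero]
    exact Limits.Sigma.hom_ext _ _ fun j => j.elim0
  exact eq_aux U1 U5 H2 _ z (isCoh_sum _) (isFinLocFree_sum r A _) F hF hLC

include U1 U5 H2 in
theorem main (F : (CohB1.ProjSpace r A).Modules) (hF : Coh.IsCoh F)
    (hfl : FlatMod.IsFlatOver (CohB1.ProjSpace r A ↘ Spec (CommRingCat.of A)) F) (i : ℕ)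
    (hLC : ∀ x : CohB1.ProjSpace r A, IsClosed ({x} : Set (CohB1.ProjSpace r A)) →
      Subsingleton (LocCoh.H (IsLocalRing.maximalIdeal ((CohB1.ProjSpace r A).presheaf.stalk x ⧸
        fibIdeal (CohB1.ProjSpace r A ↘ Spec (CommRingCat.of A)) x)) i
        (LocAlg.Qt (fibIdeal (CohB1.ProjSpace r A ↘ Spec (CommRingCat.of A)) x) (F.presheaf.stalk x)))) :
    ∃ m₀ : ℤ, ∀ m : ℤ, m₀ ≤ m →
      Subsingleton (Coh.HH (CohB1.ProjSpace r A) ((twM r A (-m)).obj F) i) := by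
  rcases lt_trichotomy i r with h | rfl | h
  · exact lt U1 U5 H2 F hF hfl i h hLC
  · exact eq U1 U5 H2 F hF hLC
  · refine ⟨0, fun m _ => ?_⟩
    have hq' : Coh.IsQCoh ((twM r A (-m)).obj F) := (isCoh_twM F (-m) hF).1
    exact S0022.result r A _ i h

end Groth.Agent.Sga2lef.H104.PnMain
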