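import Groth.Agent.Sga2lef.H104.TwPerf
import Groth.Agent.Sga2lef.H104.HomSec

/-!
# Duality in top degree for the twisting sheaves of `P^n` over a ring
-/

set_option autoImplicit false
universe u

open AlgebraicGeometry TopologicalSpace MvPolynomial CohB1 CategoryTheory Opposite CategoryTheory.Limits

noncomputable section

namespace Groth.Agent.Sga2lef.H104.TopDualA

open Groth.Agent.FormalB.PnCoh Groth.Agent.Sga2.PnTwHom
open Groth.Agent.Sga2lef.H104.TwT Groth.Agent.Sga2lef.H104.MonoBasis Groth.Agent.Sga2lef.H104.TwPerf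
open Groth.Agent.Sga2lef.H104.TwPerf0 Groth.Agent.Sga2lef.H104.HomSec
open Groth.Agent.Sga2.PnTopDual Groth.Agent.Sga2.PnHHDelta Groth.Agent.CohqA.SerreTop

variable (n : ℕ) (R : Type u) [CommRing R]

theorem exists_homEquiv (e : ℕ) (d : ℤ) (h : d + e = -((n : ℤ) + 1)) :
    Nonempty (HomTo (sig R (om n R)) (Twist.twistProjSpace n R d) ≃ₗ[R] polyGrading n R e) := by
  obtain ⟨e0⟩ := exists_H0' n R (e : ℤ) (Or.inr (by omega))
  exact ⟨(homEquiv R (homSheafTw n R d (-((n : ℤ) + 1)) e (by omega))).trans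
    (e0.symm.trans (polyEquiv n R e))⟩

theorem good_twist (e : ℕ) (d : ℤ) (h : d + e = -((n : ℤ) + 1)) :
    Good (sig R (om n R)) (TF n R) (hsig R (om n R) n) (Twist.twistProjSpace n R d) := by
  obtain ⟨eH⟩ := exists_homEquiv n R e d h
  obtain ⟨h1, h2⟩ := PairAlg.perfect_of_sub
    (theta (sig R (om n R)) (TF n R) (hsig R (om n R) n) (Twist.twistProjSpace n R d))
    (om0 n R) (mulLinR n R e d h) eH (bijective_theta_mul h)
  have h3 : Module.Finite R ((TF n R).obj (om n R)) := Module.Finite.equiv (om0 n R).symm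
  refine ⟨h1.1, h1.2, ?_, Module.Finite.equiv eH.symm⟩
  let β : (TF n R).obj (Twist.twistProjSpace n R d) →ₗ[R] (polyGrading n R e →ₗ[R] (TF n R).obj (om n R)) :=
    (LinearMap.lcomp R _ (mulLinR n R e d h)).comp
      (theta (sig R (om n R)) (TF n R) (hsig R (om n R) n) (Twist.twistProjSpace n R d))
  exact Module.Finite.equiv (LinearEquiv.ofBijective β (bijective_theta_mul h)).symm

end Groth.Agent.Sga2lef.H104.TopDualA
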