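import Groth.Agent.Sga2lef.H104.TopDualA
import Groth.Agent.Sga2.PnShift
import Groth.Agent.Sga2.PnLift
import Groth.Agent.CohqA.EpiNeg
import Groth.Agent.Ega3B.CohTensor

/-!
# Duality in top degree for finite sums of negative twists; resolutions on `P^r` over a Noetherian ring
-/

set_option autoImplicit false
universe u

open AlgebraicGeometry TopologicalSpace CategoryTheory Opposite CategoryTheory.Limits

noncomputable section

namespace Groth.Agent.Sga2lef.H104.TopSum

open Groth.Agent.Sga2lef.H104.TwT Groth.Agent.Sga2.PnTopDual Groth.Agent.CohqA.SerreTop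
open Groth.Agent.PerfB.TwistDer Groth.Agent.Sga2.PnCoprod Groth.Agent.Sga2.PnHHDelta
open Groth.Agent.Sga2.PnShift

variable (r : ℕ) (A : Type u) [CommRing A]

/-- The duality property. -/
abbrev GoodA (G : (CohB1.ProjSpace r A).Modules) : Prop :=
  Good (sig A (Groth.Agent.Sga2.PnSumCoh.om r A)) (TF r A) (hsig A (Groth.Agent.Sga2.PnSumCoh.om r A) r) G

theorem good_tw (d : ℤ) (hd : d ≤ -((r : ℤ) + 1)) : GoodA r A (tw r A d) :=
  TopDualA.good_twist r A (-((r : ℤ) + 1) - d).toNat d (by omega)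

theorem good_twM_sum {s : ℕ} (d : Fin s → ℤ) (hd : ∀ j, d j ≤ -1) (m : ℤ) (hm : (r : ℤ) ≤ m) :
    GoodA r A ((twM r A (-m)).obj (∐ fun j => tw r A (d j))) := by
  refine Good.of_decomp (L := fun j => (twM r A (-m)).obj (tw r A (d j)))
    (fun j => (twM r A (-m)).map (Sigma.ι (fun j => tw r A (d j)) j))
    (fun j => (twM r A (-m)).map (Sigma.π (fun j => tw r A (d j)) j)) ?_ fun j => ?_
  · rw [← (twM r A (-m)).map_id, ← sum_π_ι, Functor.map_sum]
    exact Finset.sum_congr rfl fun j _ => ((twM r A (-m)).map_comp _ _).symm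
  · exact Good.of_iso (twMul r A (d j) (-m) (d j + -m) rfl).symm
      (good_tw r A (d j + -m) (by have := hd j; omega))

variable {r A}

theorem good_L {K L : ℕ → (CohB1.ProjSpace r A).Modules} (R : Res r A K L) (t : ℕ) (m : ℤ) (hm : (r : ℤ) ≤ m) :
    GoodA r A ((twM r A (-m)).obj (L t)) := by
  obtain ⟨s, d, hd, h⟩ := R.sum t
  rw [h]
  exact good_twM_sum r A d hd m hm

variable [IsNoetherianRing A]

theorem isNoetherian_projSpace (r : ℕ) (A : Type u) [CommRing A] [IsNoetherianRing A] :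
    IsNoetherian (CohB1.ProjSpace r A) :=
  have : IsNoetherianRing (MvPolynomial (Fin (r + 1)) A) := inferInstance
  S2357.result (CohB1.polyGrading r A)

theorem isCoh_tw (d : ℤ) : Coh.IsCoh (tw r A d) :=
  PerfA.CohSerre.isCoh_of_isFinLocFree (isFinLocFree_tw r A d)

theorem isCoh_sum {s : ℕ} (d : Fin s → ℤ) : Coh.IsCoh (∐ fun j => tw r A (d j)) := by
  have := isNoetherian_projSpace r A
  exact CycB.CohProp.isCoh_finite_coproduct _ fun j => isCoh_tw _

theorem isCoh_L {K L : ℕ → (CohB1.ProjSpace r A).Modules} (R : Res r A K L) (t : ℕ) : Coh.IsCoh (L t) := by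
  obtain ⟨s, d, hd, h⟩ := R.sum t
  rw [h]
  exact isCoh_sum d

theorem isFinLocFree_L {K L : ℕ → (CohB1.ProjSpace r A).Modules} (R : Res r A K L) (t : ℕ) :
    FlatMod.IsFinLocFree (L t) := by
  obtain ⟨s, d, hd, h⟩ := R.sum t
  rw [h]
  exact isFinLocFree_sum r A d

theorem isCoh_twM (G : (CohB1.ProjSpace r A).Modules) (m : ℤ) (hG : Coh.IsCoh G) :
    Coh.IsCoh ((twM r A m).obj G) :=
  Ega3B.CohTensor.isCoh_tensor hG (isInvertible_tw r A m)

/-- Resolutions by sums of negative twists exist over a Noetherian ring. -/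
theorem exists_res (F : (CohB1.ProjSpace r A).Modules) (hF : Coh.IsCoh F) :
    ∃ (K L : ℕ → (CohB1.ProjSpace r A).Modules) (_ : Res r A K L), K 0 = F := by
  have hN := isNoetherian_projSpace r A
  choose m d hd φ hφ using fun (G : (CohB1.ProjSpace r A).Modules) (hG : Coh.IsCoh G) =>
    CohqA.EpiNeg.exists_epi_neg r A (-1) G hG
  let KK : ℕ → {G : (CohB1.ProjSpace r A).Modules // Coh.IsCoh G} := fun t =>
    Nat.rec ⟨F, hF⟩ (fun _ G => ⟨kernel (φ G.1 G.2),
      PerfA.CohSerre.isCoh_kernel (φ G.1 G.2) (isCoh_sum _) G.2.1⟩) t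
  refine ⟨fun t => (KK t).1, fun t => ∐ fun j => tw r A (d (KK t).1 (KK t).2 j),
    { f := fun t => kernel.ι (φ (KK t).1 (KK t).2)
      g := fun t => φ (KK t).1 (KK t).2
      w := fun t => kernel.condition _
      coh := fun t => (KK t).2
      sum := fun t => ⟨_, _, hd _ _, rfl⟩
      ex := fun t => ?_ }, rfl⟩
  have := hφ (KK t).1 (KK t).2
  exact ShortComplex.ShortExact.mk (ShortComplex.exact_kernel _)

end Groth.Agent.Sga2lef.H104.TopSum
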