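import Groth.Agent.FormalB.PnCoh
import Groth.Agent.VarietyB.TwistMul
import Groth.Agent.CohqB.HSeqMod
import Groth.Agent.Sga2lef.H104.CoverNat

/-!
# Multiplication by monomials on the top cohomology of the twisting sheaves of `P^n` over a ring
-/

set_option autoImplicit false
universe u

open AlgebraicGeometry TopologicalSpace MvPolynomial CohB1 CategoryTheory Opposite

noncomputable section

namespace Groth.Agent.Sga2lef.H104.TwPair

open Groth.Agent.FormalB.PnSections Groth.Agent.FormalB.CoverInd Groth.Agent.FormalB.OpenMV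
open Groth.Agent.FormalB.TopMV Groth.Agent.FormalB.PnInput Groth.Agent.FormalB.PnCoh Groth.Agent.CohqA
open Groth.Agent.VarietyB.TwistMul Groth.Agent.Sga2lef.H104.CoverNat Groth.Agent.CohqB.HSeqMod

section Top

variable {X : TopCat.{u}}

/-- cohomology over the total space -/
def eTop (F : CohTop.Ab X) {U : Opens X} (hU : U = ⊤) (q : ℕ) : HO F q U ≃+ CohTop.H F q :=
  HTop.equivH (J := Opens.grothendieckTopology X)
    (by subst hU; exact Limits.isTerminalTop : Limits.IsTerminal U) F q

theorem eTop_nat {F G : CohTop.Ab X} (f : F ⟶ G) {U : Opens X} (hU : U = ⊤) (q : ℕ) (x : HO F q U) :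
    eTop G hU q (mp f q U x) = Sheaf.H.map f q (eTop F hU q x) :=
  HTop.equivH_naturality (J := Opens.grothendieckTopology X) _ f q x

end Top

variable {n : ℕ} {R : Type u} [CommRing R]

/-- The map of abelian sheaves underlying multiplication. -/
abbrev mulAb {i : ℕ} (a : polyGrading n R i) {m m' : ℤ} (h : m + i = m') : FS n R m ⟶ FS n R m' :=
  (CohqB.ToSheafExact.toAbF (ProjSpace n R)).map (mulMap (𝒜 := polyGrading n R) a h)

/-- Multiplication as a morphism of Mayer-Vietoris theories. -/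
def mulMor {i : ℕ} (a : polyGrading n R i) {m m' : ℤ} (h : m + i = m') : Mor (MVn n R m) (MVn n R m') where
  τ q U := mp (mulAb a h) q U
  τ_rs q _ _ hle x := rs_mp (mulAb a h) q hle x
  τ_δ h₄ h₁ q z := mp_δ h₄ h₁ (mulAb a h) q z

/-- translation of Laurent polynomials -/
def shiftL (c : Fin (n + 1) →₀ ℕ) : Lau n R →ₗ[R] Lau n R :=
  Finsupp.lmapDomain R R (fun e i => e i + c i)

theorem shiftL_single (c : Fin (n + 1) →₀ ℕ) (e : Fin (n + 1) → ℤ) (a : R) :
    shiftL c (Finsupp.single e a) = Finsupp.single (fun i => e i + c i) a := by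
  rw [shiftL, Finsupp.lmapDomain_apply, Finsupp.mapDomain_single]

theorem shiftL_apply (c : Fin (n + 1) →₀ ℕ) (x : Lau n R) (e : Fin (n + 1) → ℤ) :
    shiftL c x (fun i => e i + c i) = x e := by
  rw [shiftL, Finsupp.lmapDomain_apply]
  exact Finsupp.mapDomain_apply (fun e e' h => funext fun i => by
    have := congrFun h i
    simpa using this) x e

theorem shiftL_apply' (c : Fin (n + 1) →₀ ℕ) (x : Lau n R) (e : Fin (n + 1) → ℤ) :
    shiftL c x e = x (fun i => e i - c i) := by
  rw [← shiftL_apply c x]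
  congr 1
  funext i
  ring

theorem shiftL_mem (c : Fin (n + 1) →₀ ℕ) {T : Finset (Fin (n + 1))} {d d' : ℤ} (h : d + c.degree = d')
    {x : Lau n R} (hx : x ∈ MA d T) : shiftL c x ∈ MA d' T := by
  rw [mem_MA] at hx ⊢
  intro e he
  rw [shiftL_apply'] at he
  obtain ⟨h1, h2⟩ := hx _ he
  refine ⟨?_, fun i hi => h2 i ?_⟩
  · rw [Finset.sum_sub_distrib] at h1
    rw [← h, ← h1, Finsupp.degree_eq_sum]
    push_cast
    ring
  · omega

theorem LV_shift {T : Finset (Fin (n + 1))} {d : ℤ} {x : Lau n R} (hx : x ∈ MT n R T d)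
    {y : ProjectiveSpectrum (polyGrading n R)} (hy : XT R T ∉ y.asHomogeneousIdeal) (c : Fin (n + 1) →₀ ℕ) :
    algebraMap (MvPolynomial (Fin (n + 1)) R) (Twist.Loc (polyGrading n R) y) (monomial c (1 : R)) * LV y x =
      LV y (shiftL c x) := by
  rw [← Finsupp.sum_single x, Finsupp.sum, map_sum, map_sum, map_sum, Finset.mul_sum]
  refine Finset.sum_congr rfl fun e he => ?_
  rw [shiftL_single, LV_single, LV_single, mul_smul_comm]
  congr 1
  refine lval_shift (fun i => rfl) (monomial_notMem hy fun i hi => ?_)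
  refine ((Finsupp.mem_supported _ _).mp hx he).2 i ?_
  simp only [nm_apply] at hi
  omega

/-- the monomial as a homogeneous element -/
def mono (c : Fin (n + 1) →₀ ℕ) {i : ℕ} (hc : c.degree = i) : polyGrading n R i :=
  ⟨monomial c 1, (mem_homogeneousSubmodule _ _).mpr (isHomogeneous_monomial _ hc)⟩

theorem mul_ρ {i : ℕ} (c : Fin (n + 1) →₀ ℕ) (hc : c.degree = i) {m m' : ℤ} (h : m + i = m')
    {T : Finset (Fin (n + 1))} (hT : T.Nonempty) {U : Opens (XS n R)} (hU : U = DT n R T)
    (x : MA (R := R) m T) :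
    mp (mulAb (mono c hc) h) 0 U (ρ hT hU x) =
      ρ hT hU ⟨shiftL c (x : Lau n R), shiftL_mem c (by rw [hc]; exact h) x.2⟩ := by
  apply (SheafH.H0 (FS n R m') U).injective
  refine (SheafH.H0_map (mulAb (mono c hc) h) U (ρ hT hU x)).trans ?_
  rw [H0_ρ, H0_ρ]
  refine sect_ext (n := n) (R := R) (d := m') fun y => ?_
  exact LV_shift x.2 (hU.le y.2) c

end Groth.Agent.Sga2lef.H104.TwPair
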