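import Groth.Agent.Sga2lef.H104.TwPerf0
import Groth.Agent.Sga2lef.H104.PairAlg
import Groth.Agent.CohqA.SerreTop2

/-!
# The pairing `S_e × H^n(O(-n-1-e)) → H^n(O(-n-1))` over a ring is perfect
-/

set_option autoImplicit false
universe u

open AlgebraicGeometry TopologicalSpace MvPolynomial CohB1 CategoryTheory Opposite

noncomputable section

namespace Groth.Agent.Sga2lef.H104.TwPerf

open Groth.Agent.FormalB.PnSections
open Groth.Agent.VarietyB.TwistMul Groth.Agent.CohqB.HSeqMod
open Groth.Agent.Sga2lef.H104.TwPair Groth.Agent.Sga2lef.H104.TwT Groth.Agent.Sga2lef.H104.MonoBasis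
open Groth.Agent.Sga2lef.H104.TwPerf0
open Groth.Agent.Sga2.PnTopDual Groth.Agent.Sga2.PnHHDelta Groth.Agent.CohqA.SerreTop Groth.Agent.CohqA.SerreTop2

variable (n : ℕ) (R : Type u) [CommRing R]

/-- `ω = O(-n-1)`. -/
abbrev om : (ProjSpace n R).Modules := Twist.twistProjSpace n R (-((n : ℤ) + 1))

/-- Multiplication by homogeneous polynomials, as a linear map. -/
def mulLinR (e : ℕ) (m : ℤ) (h : m + e = -((n : ℤ) + 1)) :
    ↥(polyGrading n R e) →ₗ[R] HomTo (sig R (om n R)) (Twist.twistProjSpace n R m) where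
  toFun f := mulMap (𝒜 := polyGrading n R) f h
  map_add' f g := mulMap_add f g h
  map_smul' c f := mulMap_smul n R c f h

variable {n R} {e : ℕ} {d : ℤ} (h : d + e = -((n : ℤ) + 1))

theorem theta_symb (c : Ex n e) (x : MT n R Finset.univ d) :
    om0 n R (theta (sig R (om n R)) (TF n R) (hsig R (om n R) n) (Twist.twistProjSpace n R d) (symbT n R d x)
      (mulLinR n R e d h (mono c.1 c.2))) = x.1 (fun i => -1 - c.1 i) := by
  refine (congrArg (om0 n R) (symbT_mul c.1 c.2 h x)).trans ?_
  rw [om0_symb]
  exact shiftL_apply' _ _ _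

/-- **The pairing with polynomials is perfect.** -/
theorem bijective_theta_mul : Function.Bijective (fun t : (TF n R).obj (Twist.twistProjSpace n R d) =>
    (theta (sig R (om n R)) (TF n R) (hsig R (om n R) n) (Twist.twistProjSpace n R d) t).comp
      (mulLinR n R e d h)) := by
  constructor
  · intro t t' htt
    obtain ⟨x, rfl⟩ := symbT_surjective d t
    obtain ⟨x', rfl⟩ := symbT_surjective d t'
    have h1 : ev d e x = ev d e x' := by
      funext c
      rw [ev_apply, ev_apply, ← theta_symb h c x, ← theta_symb h c x']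
      exact congrArg (om0 n R) (LinearMap.congr_fun htt (mono c.1 c.2))
    exact symb_eq_of_ev h h1
  · intro lam
    obtain ⟨x, hx⟩ := ev_surjective h (R := R) fun c => om0 n R (lam (mono c.1 c.2))
    refine ⟨symbT n R d x, ?_⟩
    refine (monoBasis n R e).ext fun c => ?_
    rw [monoBasis_apply]
    apply (om0 n R).injective
    refine (theta_symb h c x).trans ?_
    rw [← ev_apply, hx]

end Groth.Agent.Sga2lef.H104.TwPerf
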