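import Groth.Agent.Sga2lef.H104.TwT
import Groth.Agent.Sga2lef.H104.MonoBasis

/-!
# The pairing `S_e × H^n(O(-n-1-e)) → H^n(O(-n-1))` over a ring is perfect
-/

set_option autoImplicit false
universe u

open AlgebraicGeometry TopologicalSpace MvPolynomial CohB1 CategoryTheory Opposite

noncomputable section

namespace Groth.Agent.Sga2lef.H104.TwPerf0

open Groth.Agent.FormalB.PnSections
open Groth.Agent.Sga2lef.H104.TwPair Groth.Agent.Sga2lef.H104.TwT Groth.Agent.Sga2lef.H104.MonoBasis

theorem exists_equiv_of_ker {R M N P : Type*} [CommRing R] [AddCommGroup M] [Module R M] [AddCommGroup N]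
    [Module R N] [AddCommGroup P] [Module R P] (f : M →ₗ[R] N) (g : M →ₗ[R] P) (hf : Function.Surjective f)
    (hg : Function.Surjective g) (h : ∀ x, f x = 0 ↔ g x = 0) : ∃ e : N ≃ₗ[R] P, ∀ x, e (f x) = g x := by
  have hk : LinearMap.ker f = LinearMap.ker g := by
    ext x
    exact h x
  refine ⟨(f.quotKerEquivOfSurjective hf).symm ≪≫ₗ Submodule.quotEquivOfEq _ _ hk ≪≫ₗ
    g.quotKerEquivOfSurjective hg, fun x => ?_⟩
  have h1 : (f.quotKerEquivOfSurjective hf).symm (f x) = Submodule.Quotient.mk x := by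
    rw [LinearEquiv.symm_apply_eq]
    rfl
  change g.quotKerEquivOfSurjective hg (Submodule.quotEquivOfEq _ _ hk
    ((f.quotKerEquivOfSurjective hf).symm (f x))) = g x
  rw [h1]
  rfl

variable (n : ℕ) (R : Type u) [CommRing R]

/-- The coefficient of `(X_0 ⋯ X_n)⁻¹`. -/
def cf : MT n R Finset.univ (-((n : ℤ) + 1)) →ₗ[R] R :=
  (Finsupp.lapply (fun _ => (-1 : ℤ))).comp (Submodule.subtype _)

theorem cf_apply (x : MT n R Finset.univ (-((n : ℤ) + 1))) : cf n R x = x.1 (fun _ => -1) := rfl

theorem cf_surjective : Function.Surjective (cf n R) := by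
  intro a
  refine ⟨⟨Finsupp.single (fun _ => -1) a, Finsupp.single_mem_supported R _ ⟨?_, fun i _ => Finset.mem_univ i⟩⟩, ?_⟩
  · simp
  · rw [cf_apply]
    exact Finsupp.single_eq_same

theorem eq_neg_one {e : Fin (n + 1) → ℤ} (h1 : ∑ i, e i = -((n : ℤ) + 1)) (h2 : ∀ i, e i < 0) :
    e = fun _ => -1 := by
  funext i
  by_contra hne
  have h3 : ∑ i, e i < ∑ _i : Fin (n + 1), (-1 : ℤ) :=
    Finset.sum_lt_sum (fun j _ => by have := h2 j; omega) ⟨i, Finset.mem_univ i, by have := h2 i; omega⟩
  rw [h1] at h3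
  simp at h3

theorem cf_eq_zero_iff (x : MT n R Finset.univ (-((n : ℤ) + 1))) : symbT n R _ x = 0 ↔ cf n R x = 0 := by
  rw [symbT_eq_zero_iff _ (by omega) x, cf_apply]
  constructor
  · intro h
    by_contra hne
    obtain ⟨i, hi⟩ := h _ hne
    omega
  · intro h e he
    by_contra hcon
    push Not at hcon
    have h1 := ((Finsupp.mem_supported _ _).mp x.2 (Finsupp.mem_support_iff.mpr he)).1
    rw [eq_neg_one n h1 hcon] at he
    exact he h

theorem exists_om0 : ∃ w : (TF n R).obj (Twist.twistProjSpace n R (-((n : ℤ) + 1))) ≃ₗ[R] R,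
    ∀ x, w (symbT n R (-((n : ℤ) + 1)) x) = cf n R x :=
  exists_equiv_of_ker (R := R) (M := MT n R Finset.univ (-((n : ℤ) + 1)))
    (N := (TF n R).obj (Twist.twistProjSpace n R (-((n : ℤ) + 1)))) (P := R)
    (symbT n R (-((n : ℤ) + 1))) (cf n R) (symbT_surjective _) (cf_surjective n R)
    (cf_eq_zero_iff n R)

/-- The trace isomorphism. -/
def om0 : (TF n R).obj (Twist.twistProjSpace n R (-((n : ℤ) + 1))) ≃ₗ[R] R := (exists_om0 n R).choose

theorem om0_symb (x : MT n R Finset.univ (-((n : ℤ) + 1))) : om0 n R (symbT n R _ x) = x.1 (fun _ => -1) :=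
  (exists_om0 n R).choose_spec x

variable {n R} {e : ℕ} {d : ℤ} (h : d + e = -((n : ℤ) + 1))

/-- Coefficients of the negative monomials. -/
def ev (d : ℤ) (e : ℕ) : MT n R Finset.univ d →ₗ[R] (Ex n e → R) :=
  LinearMap.pi fun c => (Finsupp.lapply (fun i => -1 - (c.1 i : ℤ))).comp (Submodule.subtype _)

theorem ev_apply (x : MT n R Finset.univ d) (c : Ex n e) : ev d e x c = x.1 (fun i => -1 - c.1 i) := rfl

include h in
theorem ev_surjective : Function.Surjective (ev (n := n) (R := R) d e) := by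
  classical
  intro g
  have := Fintype.ofFinite (Ex n e)
  have hmem : ∀ c : Ex n e, Finsupp.single (fun i => -1 - (c.1 i : ℤ)) (g c) ∈ MT n R Finset.univ d := fun c =>
    Finsupp.single_mem_supported R _ ⟨by
      have h1 : (∑ i, (c.1 i : ℤ)) = e := by
        have h2 := c.2
        simp only [Set.mem_ofPred_eq, Finsupp.degree_eq_sum] at h2
        exact_mod_cast h2
      rw [Finset.sum_sub_distrib, h1]
      simp
      omega, fun i _ => Finset.mem_univ i⟩
  refine ⟨∑ c, ⟨_, hmem c⟩, ?_⟩
  funext c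
  rw [map_sum, Finset.sum_apply, Finset.sum_eq_single c]
  · rw [ev_apply]
    exact Finsupp.single_eq_same
  · intro c' _ hne
    rw [ev_apply]
    refine Finsupp.single_eq_of_ne fun h0 => hne (Subtype.ext (Finsupp.ext fun i => ?_))
    have := congrFun h0 i
    omega
  · intro h0
    exact absurd (Finset.mem_univ c) h0

include h in
theorem ev_eq_zero_iff (x : MT n R Finset.univ d) : symbT n R d x = 0 ↔ ev d e x = 0 := by
  rw [symbT_eq_zero_iff _ (by omega) x]
  constructor
  · intro h1
    funext c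
    rw [ev_apply]
    by_contra hne
    obtain ⟨i, hi⟩ := h1 _ hne
    omega
  · intro h1 e' he'
    by_contra hcon
    push Not at hcon
    have h2 := ((Finsupp.mem_supported _ _).mp x.2 (Finsupp.mem_support_iff.mpr he')).1
    let c : Fin (n + 1) →₀ ℕ := Finsupp.equivFunOnFinite.symm fun i => (-1 - e' i).toNat
    have hc : ∀ i, (c i : ℤ) = -1 - e' i := fun i => by
      have := hcon i
      simp only [c, Finsupp.equivFunOnFinite_symm_apply_apply]
      omega
    have hce : c ∈ Ex n e := by
      change c.degree = e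
      rw [Finsupp.degree_eq_sum]
      zify
      simp only [hc]
      rw [Finset.sum_sub_distrib, h2]
      simp
      omega
    have h3 := congrFun h1 ⟨c, hce⟩
    rw [ev_apply] at h3
    apply he'
    have h4 : (fun i => -1 - ((⟨c, hce⟩ : Ex n e).1 i : ℤ)) = e' := by
      funext i
      simp only [hc]
      ring
    rw [h4] at h3
    exact h3

include h in
theorem symb_eq_of_ev {x x' : MT n R Finset.univ d} (h1 : ev d e x = ev d e x') :
    symbT n R d x = symbT n R d x' := by
  rw [← sub_eq_zero, ← map_sub, ev_eq_zero_iff h, map_sub, h1, sub_self]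

end Groth.Agent.Sga2lef.H104.TwPerf0
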