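import Groth.Agent.Sga2lef.H104.TwPair

/-!
# The symbol map `MT univ d → H^n(P^n, O(d))` and its naturality
-/

set_option autoImplicit false
universe u

open AlgebraicGeometry TopologicalSpace MvPolynomial CohB1 CategoryTheory Opposite

noncomputable section

namespace Groth.Agent.Sga2lef.H104.TwSymb

open Groth.Agent.FormalB.PnSections Groth.Agent.FormalB.CoverInd Groth.Agent.FormalB.OpenMV
open Groth.Agent.FormalB.TopMV Groth.Agent.FormalB Groth.Agent.FormalB.PnInput Groth.Agent.FormalB.PnCoh Groth.Agent.CohqA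
open Groth.Agent.VarietyB.TwistMul Groth.Agent.Sga2lef.H104.CoverNat Groth.Agent.CohqB.HSeqMod
open Groth.Agent.Sga2lef.H104.TwPair

variable {n : ℕ} {R : Type u} [CommRing R]

theorem Sk_univ (n : ℕ) : Sk (n + 1) (n + 1) = Finset.univ := by
  ext i
  simp only [mem_Sk, Finset.mem_univ, iff_true]
  exact i.isLt

theorem mem_top {d : ℤ} {x : Lau n R} (hx : x ∈ MT n R Finset.univ d) :
    x ∈ MA (R := R) d (Sk (n + 1) (n + 1) ∪ ∅) := by
  rw [Finset.union_empty, Sk_univ]
  exact hx

theorem of_mem_top {d : ℤ} {x : Lau n R} (hx : x ∈ MA (R := R) d (Sk (n + 1) (n + 1) ∪ ∅)) :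
    x ∈ MT n R Finset.univ d := by
  rw [Finset.union_empty, Sk_univ] at hx
  exact hx

variable (n R) in
/-- The canonical symbol map before passing to the total space. -/
abbrev sig0 (d : ℤ) : MA (R := R) d (Sk (n + 1) (n + 1) ∪ ∅) →+ HO (FS n R d) n (W (D n R) (n + 1) ∅) :=
  (outPre (input n R d) n (Nat.lt_succ_self n)).σ ∅

variable (n R) in
/-- The symbol map `MT univ d → H^n(O(d))`. -/
def symb (d : ℤ) : MT n R Finset.univ d →ₗ[R] Hn n R d n where
  toFun x := eTop (FS n R d) (W_top n R) n (sig0 n R d ⟨x.1, mem_top x.2⟩)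
  map_add' x y :=
    (congrArg (eTop (FS n R d) (W_top n R) n)
      ((sig0 n R d).map_add ⟨x.1, mem_top x.2⟩ ⟨y.1, mem_top y.2⟩)).trans
      ((eTop (FS n R d) (W_top n R) n).map_add _ _)
  map_smul' c x := by
    have h1 := (outPre (input n R d) n (Nat.lt_succ_self n)).scalar c ∅ ⟨x.1, mem_top x.2⟩
    have h2 := eTop_nat (φ n R d c) (W_top n R) n (sig0 n R d ⟨x.1, mem_top x.2⟩)
    exact (congrArg (eTop (FS n R d) (W_top n R) n) h1).symm.trans h2

theorem symb_apply (d : ℤ) (x : MT n R Finset.univ d) :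
    symb n R d x = eTop (FS n R d) (W_top n R) n (sig0 n R d ⟨x.1, mem_top x.2⟩) := rfl

theorem symb_surjective (d : ℤ) : Function.Surjective (symb n R d) := by
  intro y
  obtain ⟨x, hx⟩ := (outPre (input n R d) n (Nat.lt_succ_self n)).surj ∅
    ((eTop (FS n R d) (W_top n R) n).symm y)
  refine ⟨⟨x.1, of_mem_top x.2⟩, ?_⟩
  refine (congrArg (eTop (FS n R d) (W_top n R) n) hx).trans ?_
  exact (eTop (FS n R d) (W_top n R) n).apply_symm_apply y

/-- The kernel of the symbol map. -/
theorem symb_eq_zero_iff (d : ℤ) (hn : 0 < n ∨ d < 0) (x : MT n R Finset.univ d) :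
    symb n R d x = 0 ↔ ∀ e : Fin (n + 1) → ℤ, (x : Lau n R) e ≠ 0 → ∃ i, 0 ≤ e i := by
  have h0 : symb n R d x = 0 ↔ sig0 n R d ⟨x.1, mem_top x.2⟩ = 0 := by
    rw [symb_apply]
    exact (eTop (FS n R d) (W_top n R) n).map_eq_zero_iff
  rw [h0]
  have hx := x.2
  rcases Nat.eq_zero_or_pos n with rfl | hpos
  · have hd : d < 0 := hn.resolve_left (lt_irrefl 0)
    constructor
    · intro h e he
      exfalso
      have h1 : (input 0 R d).ρ (insert ⟨0, Nat.one_pos⟩ ∅) (Finset.insert_nonempty _ _)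
          ⟨x.1, by
            have h3 := mem_top x.2
            rw [Sk_univ] at h3
            exact h3⟩ = 0 :=
        (rs_eq_zero_iff (F := MVn 0 R d) 0 (W_one (D := PnInput.D 0 R) (j := ⟨0, Nat.one_pos⟩) rfl ∅).le
          (W_one (D := PnInput.D 0 R) (j := ⟨0, Nat.one_pos⟩) rfl ∅).ge _).mp h
      have h2 := congrArg Subtype.val (((input 0 R d).ρ (insert ⟨0, Nat.one_pos⟩ ∅)
        (Finset.insert_nonempty _ _)).map_eq_zero_iff.mp h1)
      exact he (by rw [show x.1 = 0 from h2]; rfl)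
    · intro h
      have h1 : x.1 = 0 := by
        ext e
        by_contra hne
        obtain ⟨i, hi⟩ := h e hne
        have h2 := ((Finsupp.mem_supported _ _).mp hx (Finsupp.mem_support_iff.mpr hne)).1
        have h3 : i = 0 := Fin.ext (by omega)
        subst h3
        have h4 : ∑ i, e i = e 0 := by simp
        omega
      have h2 : (⟨x.1, mem_top x.2⟩ : MA (R := R) d (Sk (0 + 1) (0 + 1) ∪ ∅)) = 0 := Subtype.ext h1
      rw [h2]
      exact (sig0 0 R d).map_zero
  · obtain ⟨m, rfl⟩ : ∃ m, n = m + 1 := ⟨n - 1, by omega⟩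
    refine (outPre_ker (input (m + 1) R d) m (by omega) ∅ ⟨x.1, mem_top x.2⟩).trans ?_
    refine (mem_iSup_MA _ _ _).trans ?_
    constructor
    · intro h e he
      obtain ⟨i, hi, he1, he2⟩ := h e he
      refine ⟨i, ?_⟩
      by_contra hcon
      have := he2 i (by omega)
      simp at this
    · intro h e he
      obtain ⟨i, hi⟩ := h e he
      refine ⟨i, by rw [Sk_univ]; exact Finset.mem_univ i,
        ((Finsupp.mem_supported _ _).mp hx (Finsupp.mem_support_iff.mpr he)).1, fun l hl => ?_⟩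
      have hne : l ≠ i := by
        rintro rfl
        omega
      rw [Sk_univ]
      simp [hne]

/-- **Naturality of the symbol map for multiplication by monomials.** -/
theorem symb_mul {i : ℕ} (c : Fin (n + 1) →₀ ℕ) (hc : c.degree = i) {m m' : ℤ} (h : m + i = m')
    (x : MT n R Finset.univ m) :
    hmap (X := ProjSpace n R) (mulMap (𝒜 := polyGrading n R) (mono c hc) h) n (symb n R m x) =
      symb n R m' ⟨shiftL c x.1, shiftL_mem c (by rw [hc]; exact h) x.2⟩ := by
  have h1 := outPre_nat (input n R m) (input n R m') (mulMor (mono c hc) h) (shiftL c)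
    (fun T x hx => shiftL_mem c (by rw [hc]; exact h) hx)
    (fun T hT x => mul_ρ c hc h hT (inf_D n R T) x) n (Nat.lt_succ_self n) ∅ ⟨x.1, mem_top x.2⟩
  have h2 := eTop_nat (mulAb (mono c hc) h) (W_top n R) n (sig0 n R m ⟨x.1, mem_top x.2⟩)
  exact h2.symm.trans (congrArg (eTop (FS n R m') (W_top n R) n) h1)

end Groth.Agent.Sga2lef.H104.TwSymb
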