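import Groth.Agent.Sga2lef.H104.TwSymb
import Groth.Agent.Sga2.PnHHDelta

/-!
# The symbol map with values in the cohomology functor
-/

set_option autoImplicit false
universe u

open AlgebraicGeometry TopologicalSpace MvPolynomial CohB1 CategoryTheory Opposite

noncomputable section

namespace Groth.Agent.Sga2lef.H104.TwT

open Groth.Agent.FormalB.PnSections Groth.Agent.VarietyB.TwistMul
open Groth.Agent.Sga2lef.H104.TwPair Groth.Agent.Sga2lef.H104.TwSymb Groth.Agent.Sga2.PnHHDelta

/-- The cohomology functor in top degree. -/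
abbrev TF (n : ℕ) (R : Type u) [CommRing R] : (ProjSpace n R).Modules ⥤ ModuleCat.{u} R := hF R (ProjSpace n R) n

variable {n : ℕ} {R : Type u} [CommRing R]

variable (n R) in
/-- The symbol map. -/
def symbT (d : ℤ) : MT n R Finset.univ d →ₗ[R] (TF n R).obj (Twist.twistProjSpace n R d) := symb n R d

theorem symbT_surjective (d : ℤ) : Function.Surjective (symbT n R d) := symb_surjective d

theorem symbT_eq_zero_iff (d : ℤ) (hn : 0 < n ∨ d < 0) (x : MT n R Finset.univ d) :
    symbT n R d x = 0 ↔ ∀ e : Fin (n + 1) → ℤ, (x : Lau n R) e ≠ 0 → ∃ i, 0 ≤ e i :=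
  symb_eq_zero_iff d hn x

theorem symbT_mul {i : ℕ} (c : Fin (n + 1) →₀ ℕ) (hc : c.degree = i) {m m' : ℤ} (h : m + i = m')
    (x : MT n R Finset.univ m) :
    ((TF n R).map (mulMap (𝒜 := polyGrading n R) (mono c hc) h)).hom (symbT n R m x) =
      symbT n R m' ⟨shiftL c x.1, shiftL_mem c (by rw [hc]; exact h) x.2⟩ := symb_mul c hc h x

end Groth.Agent.Sga2lef.H104.TwT
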